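import Cfsg.Agent.TICount.CaseB
import Cfsg.Agent.FusionTwo.Common
import Cfsg.Agent.Frobenius.FPF

/-!
`|M| = |C(z)| / 2 + 1`: a normal elementary abelian `2`-subgroup complements the dihedral normaliser.
-/

set_option autoImplicit false
set_option linter.style.haveILetI false
set_option linter.unusedSectionVars false

namespace CfsgLib.TICount

open MulAction

variable {G : Type*} [Group G] [Finite G] {M : Subgroup G} {z : G}

local notation "𝒩" => Subgroup.normalizer (M : Set G)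
local notation "𝒞" => Subgroup.centralizer (Singleton.singleton z : Set G)

/-- The parameters of this case. -/
structure DataB1 (M : Subgroup G) (z : G) (P : ℕ) : Prop extends DataB M z where
  cardM : Nat.card M = P + 1
  cardC : Nat.card (Subgroup.centralizer (Singleton.singleton z : Set G)) = 2 * P
  cardS : Nat.card {v : G // v ∈ Subgroup.centralizer (Singleton.singleton z : Set G) ∧
    IsConj z v} = P
  twoP : 2 ≤ P

namespace DataB1

variable {P : ℕ} (h : DataB1 M z P)

include h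

theorem cardG : Nat.card G = 2 * ((P + 1) * (P * P)) := by
  rw [← h.card_conj_mul, h.card_conj, h.cardM, h.cardS, h.cardC]; ring

/-- A conjugate of `z` not centralising `z` gives a conjugate of an element of `M` as product. -/
theorem prod_of_not_comm {v : G} (hv : IsConj z v) (hvC : v ∉ 𝒞) :
    ∃ u ∈ 𝒞, ∃ y ∈ M, v * z = u * y * u⁻¹ := by
  classical
  haveI := Fintype.ofFinite G
  let Zs : Subgroup 𝒞 := Subgroup.zpowers ⟨z, h.z_mem_C⟩
  have hmap : ∀ (q : 𝒞 ⧸ Zs) (y : M), y ≠ 1 →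
      IsConj z ((q.out : G) * y * (q.out : G)⁻¹ * z) ∧
        (q.out : G) * y * (q.out : G)⁻¹ * z ∉ 𝒞 := by
    intro q y hy
    set u : G := ((q.out : 𝒞) : G) with hu
    have huC : u ∈ 𝒞 := (q.out).2
    have huz : u⁻¹ * z = z * u⁻¹ :=
      (Commute.inv_left (Subgroup.mem_centralizer_singleton_iff.1 huC)).eq
    have e : u * y * u⁻¹ * z = u * ((y : G) * z) * u⁻¹ := by rw [mul_assoc, huz]; group
    rw [e]
    obtain ⟨r, hr, hrr⟩ := h.exists_sqrt y.2
    refine ⟨isConj_iff.2 ⟨u * r, ?_⟩, fun hmem => hy ?_⟩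
    · calc u * r * z * (u * r)⁻¹ = u * (r * (z * r⁻¹)) * u⁻¹ := by group
        _ = u * ((r * r) * z) * u⁻¹ := by rw [h.z_mul (inv_mem hr), inv_inv, ← mul_assoc r r]
        _ = u * ((y : G) * z) * u⁻¹ := by rw [hrr]
    · have h1 : (y : G) * z ∈ 𝒞 := by
        have := mul_mem (mul_mem (inv_mem huC) hmem) huC
        convert this using 1
        group
      have h2 : (y : G) ∈ 𝒞 := by
        have := mul_mem h1 h.z_mem_C
        rwa [mul_assoc, h.z2, mul_one] at this
      exact Subtype.ext (h.eq_one_of_mem_of_comm y.2 h2)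
  let f : (𝒞 ⧸ Zs) × {y : M // y ≠ 1} → {w : {w : G // IsConj z w} // (w : G) ∉ 𝒞} :=
    fun p => ⟨⟨(p.1.out : G) * (p.2 : M) * (p.1.out : G)⁻¹ * z, (hmap p.1 p.2 p.2.2).1⟩,
      (hmap p.1 p.2 p.2.2).2⟩
  have hf : Function.Injective f := by
    rintro ⟨q, y⟩ ⟨q', y'⟩ e
    have e1 : (q.out : G) * (y : M) * (q.out : G)⁻¹ = (q'.out : G) * (y' : M) * (q'.out : G)⁻¹ :=
      mul_right_cancel (congrArg (fun w : {w : {w : G // IsConj z w} // (w : G) ∉ 𝒞} =>
        ((w : {w : G // IsConj z w}) : G)) e)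
    have e2 : ((q'.out : G)⁻¹ * q.out) * (y : M) * ((q'.out : G)⁻¹ * q.out)⁻¹ = (y' : M) := by
      calc ((q'.out : G)⁻¹ * q.out) * (y : M) * ((q'.out : G)⁻¹ * q.out)⁻¹
          = (q'.out : G)⁻¹ * ((q.out : G) * (y : M) * (q.out : G)⁻¹) * q'.out := by group
        _ = (y' : M) := by rw [e1]; group
    have hN := h.ti _ _ (y : M).2 (fun e' => y.2 (Subtype.ext e')) (by rw [e2]; exact (y' : M).2)
    have hqq : q = q' := by
      rw [← QuotientGroup.out_eq' q, ← QuotientGroup.out_eq' q', eq_comm, QuotientGroup.eq]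
      rcases h.cent_inf_norm hN (mul_mem (inv_mem (q'.out).2) (q.out).2) with e3 | e3
      · have : (q'.out)⁻¹ * q.out = (1 : 𝒞) := Subtype.ext e3
        rw [this]; exact one_mem _
      · have : (q'.out)⁻¹ * q.out = (⟨z, h.z_mem_C⟩ : 𝒞) := Subtype.ext e3
        rw [this]; exact Subgroup.mem_zpowers _
    subst hqq
    exact Prod.ext rfl (Subtype.ext (Subtype.ext (mul_left_cancel (mul_right_cancel e1))))
  have hcard : Fintype.card {w : {w : G // IsConj z w} // (w : G) ∉ 𝒞} ≤
      Fintype.card ((𝒞 ⧸ Zs) × {y : M // y ≠ 1}) := by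
    have h1 : Nat.card (𝒞 ⧸ Zs) = P := by
      have := Subgroup.card_eq_card_quotient_mul_card_subgroup Zs
      rw [h.cardC, Nat.card_zpowers, ← Subgroup.orderOf_coe,
        orderOf_eq_prime (p := 2) (by rw [pow_two, h.z2]) h.z1] at this
      omega
    have h2 : Fintype.card {y : M // y ≠ 1} = P := by
      rw [Fintype.card_subtype_compl, Fintype.card_subtype_eq, ← Nat.card_eq_fintype_card, h.cardM]
      omega
    have h3 : Fintype.card {w : {w : G // IsConj z w} // (w : G) ∈ 𝒞} = P := by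
      rw [← Nat.card_eq_fintype_card, ← h.cardS]
      exact Nat.card_congr ((Equiv.subtypeSubtypeEquivSubtypeInter _ _).trans
        (Equiv.subtypeEquivRight fun w => and_comm))
    rw [Fintype.card_prod, ← Nat.card_eq_fintype_card (α := 𝒞 ⧸ Zs), h1, h2,
      Fintype.card_subtype_compl, h3, ← Nat.card_eq_fintype_card, h.card_conj, h.cardS, h.cardM,
      Nat.add_mul, one_mul, Nat.add_sub_cancel]
  obtain ⟨⟨q, y⟩, e⟩ := ((Fintype.bijective_iff_injective_and_card f).2
    ⟨hf, le_antisymm (Fintype.card_le_of_injective f hf) hcard⟩).2 ⟨⟨v, hv⟩, hvC⟩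
  refine ⟨_, (q.out).2, _, (y : M).2, ?_⟩
  have e' : (q.out : G) * (y : M) * (q.out : G)⁻¹ * z = v :=
    congrArg (fun w : {w : {w : G // IsConj z w} // (w : G) ∉ 𝒞} =>
      ((w : {w : G // IsConj z w}) : G)) e
  rw [← e', mul_assoc, h.z2, mul_one]

theorem comm_or_prod {v v' : G} (hv : IsConj z v) (hv' : IsConj z v') :
    Commute v v' ∨ ∃ g : G, ∃ y ∈ M, v * v' = g * y * g⁻¹ := by
  obtain ⟨g, rfl⟩ := isConj_iff.1 hv'
  by_cases hc : g⁻¹ * v * g ∈ 𝒞
  · left
    have e := Subgroup.mem_centralizer_singleton_iff.1 hc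
    calc v * (g * z * g⁻¹) = g * (g⁻¹ * v * g * z) * g⁻¹ := by group
      _ = g * (z * (g⁻¹ * v * g)) * g⁻¹ := by rw [e]
      _ = g * z * g⁻¹ * v := by group
  · right
    obtain ⟨u, -, y, hy, e⟩ := h.prod_of_not_comm
      (hv.trans (isConj_iff.2 ⟨g⁻¹, by group⟩)) hc
    exact ⟨g * u, y, hy, by
      calc v * (g * z * g⁻¹) = g * (g⁻¹ * v * g * z) * g⁻¹ := by group
        _ = g * u * y * (g * u)⁻¹ := by rw [e]; group⟩

/-- If the conjugate `v v' v` commutes with `v'` then so does `v`. -/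
theorem comm_of_conj {v v' : G} (hv : IsConj z v) (hv' : IsConj z v')
    (hc : v * v' * v * v' = v' * (v * v' * v)) : Commute v v' := by
  rcases h.comm_or_prod hv hv' with h1 | ⟨g, y, hy, e⟩
  · exact h1
  have h4 : (v * v') * (v * v') * ((v * v') * (v * v')) = 1 := by
    calc (v * v') * (v * v') * ((v * v') * (v * v'))
        = (v * v' * v * v') * (v * v' * v * v') := by group
      _ = (v * v' * v * v') * (v' * (v * v' * v))⁻¹⁻¹ := by
          conv_lhs => arg 2; rw [hc]
          rw [inv_inv]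
      _ = v * v' * v * (v' * v') * (v * v' * v) := by rw [inv_inv]; group
      _ = v * v' * (v * v) * v' * v := by rw [(h.sq_of_conj hv').1]; group
      _ = v * (v' * v') * v := by rw [(h.sq_of_conj hv).1]; group
      _ = 1 := by rw [(h.sq_of_conj hv').1, mul_one, (h.sq_of_conj hv).1]
  rw [e] at h4
  have h5 : y * y * (y * y) = 1 := by
    have : g * (y * y * (y * y)) * g⁻¹ = 1 := by rw [← h4]; group
    exact conj_eq_one_iff.1 this
  have hy1 : y = 1 := h.eq_one_of_sq hy (h.eq_one_of_sq (mul_mem hy hy) h5)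
  rw [hy1, mul_one, mul_inv_cancel] at e
  rw [← inv_eq_of_mul_eq_one_right e, inv_eq_of_mul_eq_one_right (h.sq_of_conj hv).1]

theorem cent_eq {v : G} (hv : IsConj z v) (hvC : v ∈ 𝒞) :
    Subgroup.centralizer ({v} : Set G) = 𝒞 := by
  obtain ⟨g, rfl⟩ := isConj_iff.1 hv
  refine (Subgroup.eq_of_le_of_card_ge (fun c hc => Subgroup.mem_centralizer_singleton_iff.2
    (h.cent_comm hc hvC)) ?_).symm
  refine Nat.card_le_card_of_injective (fun c : Subgroup.centralizer ({g * z * g⁻¹} : Set G) =>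
    (⟨g⁻¹ * c * g, ?_⟩ : 𝒞)) fun c d e => Subtype.ext ?_
  · refine Subgroup.mem_centralizer_singleton_iff.2 ?_
    have e := Subgroup.mem_centralizer_singleton_iff.1 c.2
    calc g⁻¹ * c * g * z = g⁻¹ * (c * (g * z * g⁻¹)) * g := by group
      _ = g⁻¹ * (g * z * g⁻¹ * c) * g := by rw [e]
      _ = z * (g⁻¹ * c * g) := by group
  · exact mul_left_cancel (mul_right_cancel (congrArg Subtype.val e))

local notation "𝓛" => Subgroup.normalizer
  ((Subgroup.centralizer (Singleton.singleton z : Set G) : Subgroup G) : Set G)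

theorem mem_L {g : G} : g ∈ 𝓛 ↔ g * z * g⁻¹ ∈ 𝒞 := by
  refine ⟨fun hg => (Subgroup.mem_normalizer_iff.1 hg z).1 h.z_mem_C, fun hg => ?_⟩
  have he := h.cent_eq (isConj_iff.2 ⟨g, rfl⟩) hg
  rw [Subgroup.mem_normalizer_iff]
  intro c
  conv_rhs => rw [← he]
  rw [Subgroup.mem_centralizer_singleton_iff, Subgroup.mem_centralizer_singleton_iff]
  constructor
  · intro e
    calc g * c * g⁻¹ * (g * z * g⁻¹) = g * (c * z) * g⁻¹ := by group
      _ = g * (z * c) * g⁻¹ := by rw [e]
      _ = g * z * g⁻¹ * (g * c * g⁻¹) := by group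
  · intro e
    calc c * z = g⁻¹ * (g * c * g⁻¹ * (g * z * g⁻¹)) * g := by group
      _ = g⁻¹ * (g * z * g⁻¹ * (g * c * g⁻¹)) * g := by rw [e]
      _ = z * c := by group

theorem C_le_L {c : G} (hc : c ∈ 𝒞) : c ∈ 𝓛 := Subgroup.le_normalizer hc

/-- A conjugate of `z` in the normaliser of `C(z)` centralises `z`. -/
theorem mem_C_of_mem_L {v : G} (hv : IsConj z v) (hvL : v ∈ 𝓛) : v ∈ 𝒞 := by
  have h1 := (h.mem_L).1 hvL
  rw [inv_eq_of_mul_eq_one_right (h.sq_of_conj hv).1] at h1
  exact Subgroup.mem_centralizer_singleton_iff.2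
    (h.comm_of_conj hv (IsConj.refl z) (Subgroup.mem_centralizer_singleton_iff.1 h1)).eq

local notation "blk" g:max => (QuotientGroup.mk g : G ⧸ Subgroup.normalizer
  ((Subgroup.centralizer (Singleton.singleton z : Set G) : Subgroup G) : Set G))

theorem blk_eq {g k : G} : blk g = blk k ↔ g⁻¹ * k ∈ 𝓛 := QuotientGroup.eq

theorem blk_surj (g : G) : ∃ y ∈ M, blk y = blk g := by
  obtain ⟨⟨y, v, hv, hv1⟩, e⟩ := h.conj_bij.2 (g * z * g⁻¹)
    (h.sq_of_conj (isConj_iff.2 ⟨g, rfl⟩)).1 (h.sq_of_conj (isConj_iff.2 ⟨g, rfl⟩)).2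
  refine ⟨y, y.2, (blk_eq h).2 (h.mem_L.2 ?_)⟩
  simp only at e
  have : (y : G)⁻¹ * g * z * ((y : G)⁻¹ * g)⁻¹ = v := by
    calc (y : G)⁻¹ * g * z * ((y : G)⁻¹ * g)⁻¹ = (y : G)⁻¹ * (g * z * g⁻¹) * y := by group
      _ = v := by rw [← e]; group
  rw [this]
  exact hv

theorem blk_inj {x y : G} (hx : x ∈ M) (hy : y ∈ M) (e : blk x = blk y) : x = y :=
  inv_mul_eq_one.1 (h.conj_z_mem (mul_mem (inv_mem hx) hy) (h.mem_L.1 ((blk_eq h).1 e)))

theorem z_smul {y : G} (hy : y ∈ M) : z • blk y = blk y⁻¹ := by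
  show blk (z * y) = blk y⁻¹
  rw [blk_eq h, h.z_mul hy, mul_inv_rev, h.zinv, inv_inv, mul_assoc, mul_inv_cancel, mul_one]
  exact h.C_le_L h.z_mem_C

theorem swap {g : G} (p q : G ⧸ Subgroup.normalizer
    ((Subgroup.centralizer (Singleton.singleton z : Set G) : Subgroup G) : Set G)) :
    ∃ x ∈ M, (g * (x * z) * g⁻¹) • p = q := by
  obtain ⟨a, rfl⟩ : ∃ a, blk a = p := QuotientGroup.mk_surjective p
  obtain ⟨b, rfl⟩ : ∃ b, blk b = q := QuotientGroup.mk_surjective q
  obtain ⟨y₁, hy₁, e₁⟩ := h.blk_surj (g⁻¹ * a)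
  obtain ⟨y₂, hy₂, e₂⟩ := h.blk_surj (g⁻¹ * b)
  refine ⟨y₂ * y₁, mul_mem hy₂ hy₁, ?_⟩
  rw [mul_smul, show g⁻¹ • blk a = blk (g⁻¹ * a) from rfl, ← e₁, mul_smul, mul_smul, h.z_smul hy₁,
    show (y₂ * y₁) • blk y₁⁻¹ = blk (y₂ * y₁ * y₁⁻¹) from rfl, mul_inv_cancel_right, e₂,
    show g • blk (g⁻¹ * b) = blk (g * (g⁻¹ * b)) from rfl, mul_inv_cancel_left]

theorem eq_one_of_fix {g y : G} (hy : y ∈ M)
    {p : G ⧸ Subgroup.normalizer
      ((Subgroup.centralizer (Singleton.singleton z : Set G) : Subgroup G) : Set G)}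
    (e : (g * y * g⁻¹) • p = p) : y = 1 := by
  obtain ⟨a, rfl⟩ : ∃ a, blk a = p := QuotientGroup.mk_surjective p
  obtain ⟨x, hx, ex⟩ := h.blk_surj (g⁻¹ * a)
  have e2 : y • blk x = blk x := by
    rw [ex]
    have h3 : blk (g * y * g⁻¹ * a) = blk a := e
    show blk (y * (g⁻¹ * a)) = blk (g⁻¹ * a)
    rw [blk_eq h] at h3 ⊢
    convert h3 using 1
    group
  have := h.blk_inj (mul_mem hy hx) hx e2
  exact mul_eq_right.1 this

/-- Commuting conjugates of `z` act in the same way. -/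
theorem smul_eq_of_comm {v v' : G} (hv : IsConj z v) (hv' : IsConj z v') (hc : Commute v v')
    (p : G ⧸ Subgroup.normalizer
      ((Subgroup.centralizer (Singleton.singleton z : Set G) : Subgroup G) : Set G)) :
    v • p = v' • p := by
  classical
  haveI := Fintype.ofFinite G
  obtain ⟨a, rfl⟩ : ∃ a, blk a = p := QuotientGroup.mk_surjective p
  by_cases hfix : v • blk a = blk a
  · have conjmem : ∀ w : G, IsConj z w → (w • blk a = blk a ↔ a⁻¹ * w * a ∈ 𝒞) := by
      intro w hw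
      show blk (w * a) = blk a ↔ _
      rw [blk_eq h]
      have hw' : IsConj z (a⁻¹ * w * a) := hw.trans (isConj_iff.2 ⟨a⁻¹, by group⟩)
      have e : (w * a)⁻¹ * a = a⁻¹ * w * a := by
        rw [mul_inv_rev, inv_eq_of_mul_eq_one_right (h.sq_of_conj hw).1]
      rw [e]
      exact ⟨h.mem_C_of_mem_L hw', h.C_le_L⟩
    rw [hfix]
    symm
    rw [conjmem v' hv']
    have h1 := (conjmem v hv).1 hfix
    have hv2 : IsConj z (a⁻¹ * v * a) := hv.trans (isConj_iff.2 ⟨a⁻¹, by group⟩)
    rw [← h.cent_eq hv2 h1]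
    refine Subgroup.mem_centralizer_singleton_iff.2 ?_
    calc a⁻¹ * v' * a * (a⁻¹ * v * a) = a⁻¹ * (v' * v) * a := by group
      _ = a⁻¹ * (v * v') * a := by rw [hc.eq]
      _ = a⁻¹ * v * a * (a⁻¹ * v' * a) := by group
  · set X := Finset.univ.filter fun w : G => IsConj z w ∧ w • blk a = v • blk a with hX
    choose x hxM hx using fun g : G => h.swap (g := g) (blk a) (v • blk a)
    have hmaps : ∀ g ∈ (Finset.univ : Finset G), g * (x g * z) * g⁻¹ ∈ X := by
      intro g _
      refine Finset.mem_filter.2 ⟨Finset.mem_univ _, ?_, hx g⟩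
      obtain ⟨r, hr, hrr⟩ := h.exists_sqrt (hxM g)
      refine isConj_iff.2 ⟨g * r, ?_⟩
      calc g * r * z * (g * r)⁻¹ = g * (r * (z * r⁻¹)) * g⁻¹ := by group
        _ = g * (x g * z) * g⁻¹ := by rw [h.z_mul (inv_mem hr), inv_inv, ← mul_assoc r r, hrr]
    have hfib : ∀ w ∈ X,
        ((Finset.univ : Finset G).filter fun g => g * (x g * z) * g⁻¹ = w).card ≤
          2 * P * (P + 1) := by
      intro w hw
      obtain ⟨c, hcw⟩ := isConj_iff.1 (Finset.mem_filter.1 hw).2.1
      choose r hr hrr using fun g : G => h.exists_sqrt (hxM g)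
      have hle := Finset.card_le_card_of_injOn
        (s := (Finset.univ : Finset G).filter fun g => g * (x g * z) * g⁻¹ = w)
        (t := ((Finset.univ : Finset G).filter (· ∈ 𝒞)) ×ˢ
          ((Finset.univ : Finset G).filter (· ∈ M)))
        (fun g => (c⁻¹ * g * r g, r g))
        (fun g hg => by
          have hgw := (Finset.mem_filter.1 hg).2
          rw [Finset.coe_product]
          refine ⟨?_, by simp [hr g]⟩
          simp only [Finset.coe_filter, Set.mem_setOf_eq, Finset.mem_univ, true_and]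
          refine Subgroup.mem_centralizer_singleton_iff.2 ?_
          have e : g * r g * z * (g * r g)⁻¹ = c * z * c⁻¹ := by
            rw [hcw, ← hgw]
            calc g * r g * z * (g * r g)⁻¹ = g * (r g * (z * (r g)⁻¹)) * g⁻¹ := by group
              _ = g * (x g * z) * g⁻¹ := by
                rw [h.z_mul (inv_mem (hr g)), inv_inv, ← mul_assoc (r g) (r g), hrr g]
          calc c⁻¹ * g * r g * z = c⁻¹ * (g * r g * z * (g * r g)⁻¹) * (g * r g) := by group
            _ = c⁻¹ * (c * z * c⁻¹) * (g * r g) := by rw [e]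
            _ = z * (c⁻¹ * g * r g) := by group)
        (fun g _ g' _ e => by
          simp only [Prod.mk.injEq] at e
          obtain ⟨e1, e2⟩ := e
          rw [e2] at e1
          exact mul_left_cancel (mul_right_cancel e1))
      refine hle.trans (le_of_eq ?_)
      rw [Finset.card_product, ← Fintype.card_subtype, ← Fintype.card_subtype,
        ← Nat.card_eq_fintype_card, ← Nat.card_eq_fintype_card, h.cardC, h.cardM]
    have hXcard : P ≤ X.card := by
      have := Finset.card_le_mul_card_image_of_maps_to hmaps (2 * P * (P + 1)) hfib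
      rw [Finset.card_univ, ← Nat.card_eq_fintype_card, h.cardG] at this
      refine Nat.le_of_mul_le_mul_left (c := 2 * P * (P + 1)) (le_trans (le_of_eq ?_) this)
        (by have := h.twoP; positivity)
      ring
    obtain ⟨c, hcv⟩ := isConj_iff.1 hv
    let S := Finset.univ.filter fun w : G => IsConj z w ∧ Commute v w
    have hXS : X ⊆ S := by
      intro w hw
      obtain ⟨-, hwz, hwp⟩ := Finset.mem_filter.1 hw
      refine Finset.mem_filter.2 ⟨Finset.mem_univ _, hwz, ?_⟩
      rcases h.comm_or_prod hv hwz with h1 | ⟨g, y, hy, e⟩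
      · exact h1
      · have hy1 : y = 1 := h.eq_one_of_fix hy (g := g) (p := blk a) (by
          rw [← e, mul_smul, hwp, ← mul_smul, (h.sq_of_conj hv).1, one_smul])
        rw [hy1, mul_one, mul_inv_cancel] at e
        rw [← inv_eq_of_mul_eq_one_right e, inv_eq_of_mul_eq_one_right (h.sq_of_conj hv).1]
    have hScard : S.card ≤ P := by
      rw [← h.cardS, Nat.card_eq_fintype_card, Fintype.card_subtype]
      refine Finset.card_le_card_of_injOn (fun w => c⁻¹ * w * c) ?_
        (fun w _ w' _ e => mul_left_cancel (mul_right_cancel e))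
      intro w hw
      obtain ⟨-, hwz, hwc⟩ := Finset.mem_filter.1 hw
      simp only [Finset.coe_filter, Finset.mem_univ, true_and, Set.mem_setOf_eq]
      refine ⟨Subgroup.mem_centralizer_singleton_iff.2 ?_,
        hwz.trans (isConj_iff.2 ⟨c⁻¹, by group⟩)⟩
      have hz : z = c⁻¹ * v * c := by rw [← hcv]; group
      rw [hz]
      calc c⁻¹ * w * c * (c⁻¹ * v * c) = c⁻¹ * (w * v) * c := by group
        _ = c⁻¹ * (v * w) * c := by rw [hwc.eq]
        _ = c⁻¹ * v * c * (c⁻¹ * w * c) := by group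
    have heq := Finset.eq_of_subset_of_card_le hXS (hScard.trans hXcard)
    have hmem : v' ∈ X := by
      rw [heq]; exact Finset.mem_filter.2 ⟨Finset.mem_univ _, hv', hc⟩
    exact (Finset.mem_filter.1 hmem).2.2.symm

/-- The kernel of the action on the conjugates of `C(z)`. -/
theorem exists_kernel : ∃ E : Subgroup G, E.Normal ∧ IsMulCommutative E ∧
    (∀ e ∈ E, e * e = 1) ∧ Nat.card E = P * P ∧
    E ⊓ 𝒩 = ⊥ ∧ E ⊔ 𝒩 = ⊤ := by
  classical
  haveI := Fintype.ofFinite G
  let L := Subgroup.normalizer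
    ((Subgroup.centralizer (Singleton.singleton z : Set G) : Subgroup G) : Set G)
  let E := (MulAction.toPermHom G (G ⧸ L)).ker
  have hmemE : ∀ e : G, e ∈ E ↔ ∀ p : G ⧸ L, e • p = p := fun e =>
    ⟨fun he p => congrFun (congrArg (fun σ : Equiv.Perm (G ⧸ L) => (σ : G ⧸ L → G ⧸ L)) he) p,
     fun he => Equiv.ext he⟩
  have hEn : E.Normal := MonoidHom.normal_ker _
  have hzE : ∀ v : G, IsConj z v → v ∉ E := by
    intro v hv hvE
    obtain ⟨g, hg⟩ := isConj_iff.1 hv
    have hz : z ∈ E := by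
      have := hEn.conj_mem v hvE g⁻¹
      convert this using 1
      rw [← hg]; group
    obtain ⟨y, hy, hy1⟩ := M.bot_or_exists_ne_one.resolve_left h.ne_bot
    have e := (hmemE z).1 hz (blk y)
    rw [h.z_smul hy] at e
    have e' := h.blk_inj (inv_mem hy) hy e
    refine hy1 (h.eq_one_of_sq hy ?_)
    nth_rewrite 1 [← e']
    exact inv_mul_cancel y
  have hcent : ∀ c ∈ 𝒞, ¬ IsConj z c → c ∈ E := by
    let f : {v : G // v ∈ 𝒞 ∧ IsConj z v} → {c : 𝒞 // ¬ IsConj z (c : G)} := fun v =>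
      ⟨⟨z * v, mul_mem h.z_mem_C v.2.1⟩, fun hc => hzE _ hc ((hmemE _).2 fun p => by
        rw [mul_smul, ← h.smul_eq_of_comm (IsConj.refl z) v.2.2
          (h.cent_comm h.z_mem_C v.2.1) p, ← mul_smul, h.z2, one_smul])⟩
    have hf : Function.Injective f := fun v w e => Subtype.ext (mul_left_cancel
      (congrArg (fun c : {c : 𝒞 // ¬ IsConj z (c : G)} => ((c : 𝒞) : G)) e))
    have hcard : Fintype.card {c : 𝒞 // ¬ IsConj z (c : G)} ≤
        Fintype.card {v : G // v ∈ 𝒞 ∧ IsConj z v} := by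
      have h3 : Fintype.card {c : 𝒞 // IsConj z (c : G)} = P := by
        rw [← Nat.card_eq_fintype_card, ← h.cardS]
        exact Nat.card_congr (Equiv.subtypeSubtypeEquivSubtypeInter _ _)
      rw [Fintype.card_subtype_compl, h3, ← Nat.card_eq_fintype_card, h.cardC,
        ← Nat.card_eq_fintype_card, h.cardS]
      omega
    intro c hc hcz
    obtain ⟨v, e⟩ := ((Fintype.bijective_iff_injective_and_card f).2
      ⟨hf, le_antisymm (Fintype.card_le_of_injective f hf) hcard⟩).2 ⟨⟨c, hc⟩, hcz⟩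
    have e' : z * (v : G) = c :=
      congrArg (fun c : {c : 𝒞 // ¬ IsConj z (c : G)} => ((c : 𝒞) : G)) e
    rw [← e', hmemE]
    intro p
    rw [mul_smul, ← h.smul_eq_of_comm (IsConj.refl z) v.2.2
      (h.cent_comm h.z_mem_C v.2.1) p, ← mul_smul, h.z2, one_smul]
  have hinvol : ∀ w : G, w * w = 1 → w ≠ 1 → ¬ IsConj z w → w ∈ E := by
    intro w hw hw1 hwz
    obtain ⟨⟨y, v, hv, hv1⟩, e⟩ := h.conj_bij.2 w hw hw1
    simp only at e
    rw [← e]
    exact hEn.conj_mem v (hcent v hv fun hvz => hwz (hvz.trans (isConj_iff.2 ⟨_, e⟩))) _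
  have hEN : E ⊓ 𝒩 = ⊥ := by
    rw [Subgroup.eq_bot_iff_forall]
    rintro e ⟨heE, heN⟩
    obtain ⟨y, hy, k, hk, rfl⟩ := h.exists_mul heN
    rcases h.cent_inf_norm hk.1 hk.2 with rfl | rfl
    · rw [mul_one] at heE ⊢
      exact h.eq_one_of_fix hy (g := 1) (p := blk 1)
        (by rw [one_mul, inv_one, mul_one]; exact (hmemE y).1 heE _)
    · exfalso
      obtain ⟨r, hr, hrr⟩ := h.exists_sqrt hy
      refine hzE _ (isConj_iff.2 ⟨r, ?_⟩) heE
      rw [mul_assoc, h.z_mul (inv_mem hr), inv_inv, ← mul_assoc, hrr]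
  have hle : Nat.card E ≤ P * P := by
    have h1 := Nat.card_le_card_of_injective (fun p : E × 𝒩 => (p.1 : G) * p.2) (by
      rintro ⟨e, n⟩ ⟨e', n'⟩ he
      have he : (e : G) * n = e' * n' := he
      have h2 : (e' : G)⁻¹ * e ∈ E ⊓ 𝒩 := Subgroup.mem_inf.2 ⟨mul_mem (inv_mem e'.2) e.2, by
        rw [show (e' : G)⁻¹ * e = n' * (n : G)⁻¹ by
          rw [eq_mul_inv_iff_mul_eq, mul_assoc, he, inv_mul_cancel_left]]
        exact mul_mem n'.2 (inv_mem n.2)⟩
      rw [hEN, Subgroup.mem_bot] at h2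
      have h3 : e = e' := (Subtype.ext (inv_mul_eq_one.1 h2)).symm
      subst h3
      exact Prod.ext rfl (Subtype.ext (mul_left_cancel he)))
    rw [Nat.card_prod, h.card_norm, h.cardM, h.cardG] at h1
    refine Nat.le_of_mul_le_mul_right (c := 2 * (P + 1)) (le_trans h1 (le_of_eq ?_))
      (by positivity)
    ring
  -- all involutions outside the class of `z` lie in the kernel
  let A := {v : G // v * v = 1 ∧ v ≠ 1}
  have hA : Fintype.card A = (P + 1) * (2 * P - 1) := by
    rw [← Nat.card_eq_fintype_card, h.card_involutions, h.cardM, h.cardC]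
  have hAz : Fintype.card {v : A // IsConj z (v : G)} = (P + 1) * P := by
    rw [← Nat.card_eq_fintype_card, ← h.cardM]
    conv_rhs => arg 2; rw [← h.cardS]
    rw [← h.card_conj]
    exact Nat.card_congr ((Equiv.subtypeSubtypeEquivSubtypeInter
      (fun v : G => v * v = 1 ∧ v ≠ 1) (IsConj z)).trans
      (Equiv.subtypeEquivRight fun v => ⟨fun e => e.2, fun e => ⟨h.sq_of_conj e, e⟩⟩))
  let f : {v : A // ¬ IsConj z (v : G)} → {e : E // e ≠ 1} := fun v =>
    ⟨⟨v.1.1, hinvol _ v.1.2.1 v.1.2.2 v.2⟩, fun e => v.1.2.2 (congrArg Subtype.val e)⟩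
  have hf : Function.Injective f := fun v w e => Subtype.ext (Subtype.ext
    (congrArg (fun x : {e : E // e ≠ 1} => ((x : E) : G)) e))
  have hnA : Fintype.card {v : A // ¬ IsConj z (v : G)} + 1 = P * P := by
    rw [Fintype.card_subtype_compl, hA, hAz, ← Nat.mul_sub,
      show 2 * P - 1 - P = P - 1 by omega, Nat.mul_sub, mul_one]
    have : (P + 1) * P = P * P + P := by ring
    have := h.twoP
    have := Nat.mul_le_mul h.twoP h.twoP
    omega
  have hE1 : Fintype.card {e : E // e ≠ 1} + 1 = Nat.card E := by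
    rw [Fintype.card_subtype_compl, Fintype.card_subtype_eq, ← Nat.card_eq_fintype_card]
    have := Nat.card_pos (α := E)
    omega
  have hge := Fintype.card_le_of_injective f hf
  have hcardE : Nat.card E = P * P := by omega
  have hsq : ∀ e ∈ E, e * e = 1 := by
    intro e he
    by_cases he1 : e = 1
    · rw [he1, one_mul]
    obtain ⟨v, hv⟩ := ((Fintype.bijective_iff_injective_and_card f).2
      ⟨hf, by omega⟩).2 ⟨⟨e, he⟩, fun e' => he1 (congrArg Subtype.val e')⟩
    have e' : (v.1 : G) = e := congrArg (fun x : {e : E // e ≠ 1} => ((x : E) : G)) hv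
    rw [← e']
    exact v.1.2.1
  refine ⟨E, hEn, ⟨⟨fun a b => Subtype.ext ?_⟩⟩, hsq, hcardE, hEN, ?_⟩
  · have hab := hsq _ (mul_mem a.2 b.2)
    calc (a : G) * b = a * ((a : G) * b * (a * b)) * b := by rw [hab, mul_one]
      _ = ((a : G) * a) * b * a * ((b : G) * b) := by group
      _ = b * a := by rw [hsq a a.2, hsq b b.2, one_mul, mul_one]
  · refine Subgroup.IsComplement'.sup_eq_top
      (Subgroup.isComplement'_of_card_mul_and_disjoint ?_ (disjoint_iff.2 hEN))
    rw [hcardE, h.card_norm, h.cardM, h.cardG]; ring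

/-- The normaliser is dihedral. -/
theorem exists_iso {E : Subgroup G} [E.Normal] (hsq : ∀ e ∈ E, e * e = 1)
    (hcard : Nat.card E = P * P) :
    IsCyclic M ∧ Nonempty (↥𝒩 ≃* DihedralGroup (P + 1)) := by
  classical
  haveI : Nontrivial E := Finite.one_lt_card_iff_nontrivial.1 (by
    rw [hcard]; have := Nat.mul_le_mul h.twoP h.twoP; omega)
  have hfpf := CfsgLib.Frobenius.FPF.conj_fpf_of_centralizer (H := M) (K := E) (fun x hx hx1 => by
    rw [Subgroup.eq_bot_iff_forall]
    rintro e ⟨he, hec⟩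
    by_contra he1
    have := orderOf_dvd_natCard (⟨e, hec⟩ : Subgroup.centralizer ({x} : Set G))
    rw [Subgroup.orderOf_mk, orderOf_eq_prime (p := 2) (by rw [pow_two, hsq e he]) he1] at this
    exact (h.odd x hx hx1).not_two_dvd_nat this)
  have hcyc : IsCyclic M := by
    have := CfsgLib.Frobenius.FPF.isCyclic_of_comm hfpf ⊤
      ⟨⟨fun a b => Subtype.ext (Subtype.ext (h.comm (a : M).2 (b : M).2))⟩⟩
    exact isCyclic_of_surjective (Subgroup.topEquiv (G := M)) Subgroup.topEquiv.surjective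
  refine ⟨hcyc, ?_⟩
  obtain ⟨x, hx⟩ := hcyc.exists_generator
  have ho : orderOf (x : G) = P + 1 := by
    rw [Subgroup.orderOf_coe, orderOf_eq_card_of_forall_mem_zpowers hx, h.cardM]
  have hzx : Subgroup.zpowers (x : G) = M := by
    refine le_antisymm (Subgroup.zpowers_le.2 x.2) fun y hy => ?_
    obtain ⟨j, hj⟩ := hx ⟨y, hy⟩
    exact ⟨j, congrArg Subtype.val hj⟩
  obtain ⟨f, hf, hr⟩ := CfsgLib.FusionTwo.exists_dihedral_hom (m := P + 1) (a := (x : G)) (b := z)
    ho h.z2 (by rw [h.zinv, h.zxz x.2])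
    (by rw [hzx]; exact fun hz => h.z1 (h.eq_one_of_sq hz h.z2))
  have hN : f.range = 𝒩 := by
    rw [hr]
    refine le_antisymm ((Subgroup.closure_le _).2 ?_) fun n hn => ?_
    · rintro w (rfl | rfl)
      · exact memN_of_memM x.2
      · exact h.zN
    · obtain ⟨y, hy, k, hk, rfl⟩ := h.exists_mul hn
      refine mul_mem ?_ ?_
      · rw [← hzx] at hy
        obtain ⟨j, rfl⟩ := hy
        exact zpow_mem (Subgroup.subset_closure (Set.mem_insert _ _)) j
      · rcases h.cent_inf_norm hk.1 hk.2 with rfl | rfl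
        · exact one_mem _
        · exact Subgroup.subset_closure (Set.mem_insert_of_mem _ rfl)
  exact ⟨((MonoidHom.ofInjective hf).trans (MulEquiv.subgroupCongr hN)).symm⟩

end DataB1

end CfsgLib.TICount
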