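import Cfsg.Agent.TICount.CaseB
import Cfsg.Agent.CAGroups.Recognition
import Cfsg.Agent.Frobenius.Linear

/-!
`|M| = |C(z)| + 1`: `G` is `PSL(2, 2^e)` and `M` is cyclic.
-/

set_option autoImplicit false
set_option linter.style.haveILetI false
set_option linter.unusedSectionVars false

namespace CfsgLib.TICount

variable {G : Type*} [Group G] [Finite G] {M : Subgroup G} {z : G}

local notation "𝒩" => Subgroup.normalizer (M : Set G)
local notation "𝒞" => Subgroup.centralizer (Singleton.singleton z : Set G)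

open Matrix

/-- An element of odd order of `SL(2, F)` in characteristic two fixing a non-zero vector is
trivial. -/
theorem sl2_eq_one_of_fix {F : Type*} [Field F] [CharP F 2]
    (g : Matrix.SpecialLinearGroup (Fin 2) F) (v : Fin 2 → F) (hv : v ≠ 0)
    (hgv : (g : Matrix (Fin 2) (Fin 2) F) *ᵥ v = v) (hodd : Odd (orderOf g)) : g = 1 := by
  set A := (g : Matrix (Fin 2) (Fin 2) F) with hA
  have hdet : A 0 0 * A 1 1 - A 0 1 * A 1 0 = 1 := by
    rw [← Matrix.det_fin_two]; exact g.2
  have h0 : (A 0 0 - 1) * v 0 + A 0 1 * v 1 = 0 := by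
    have := congrFun hgv 0
    simp only [Matrix.mulVec, dotProduct, Fin.sum_univ_two] at this
    linear_combination this
  have h1 : A 1 0 * v 0 + (A 1 1 - 1) * v 1 = 0 := by
    have := congrFun hgv 1
    simp only [Matrix.mulVec, dotProduct, Fin.sum_univ_two] at this
    linear_combination this
  have h2 : (2 : F) = 0 := CharTwo.two_eq_zero
  have htr : A 0 0 + A 1 1 = 0 := by
    have e0 : ((A 0 0 - 1) * (A 1 1 - 1) - A 0 1 * A 1 0) * v 0 = 0 := by
      linear_combination (A 1 1 - 1) * h0 - A 0 1 * h1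
    have e1 : ((A 0 0 - 1) * (A 1 1 - 1) - A 0 1 * A 1 0) * v 1 = 0 := by
      linear_combination (A 0 0 - 1) * h1 - A 1 0 * h0
    have : (A 0 0 - 1) * (A 1 1 - 1) - A 0 1 * A 1 0 = 0 := by
      by_contra hne
      exact hv (funext fun i => by
        fin_cases i
        · exact (mul_eq_zero.1 e0).resolve_left hne
        · exact (mul_eq_zero.1 e1).resolve_left hne)
    linear_combination hdet - this + h2
  have hsq : g * g = 1 := by
    refine Subtype.ext ?_
    ext i j
    rw [Matrix.SpecialLinearGroup.coe_mul, Matrix.SpecialLinearGroup.coe_one, Matrix.mul_apply,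
      Fin.sum_univ_two, ← hA]
    fin_cases i <;> fin_cases j <;> simp
    · linear_combination A 0 0 * htr - hdet + (-1 : F) * h2
    · linear_combination A 0 1 * htr
    · linear_combination A 1 0 * htr
    · linear_combination A 1 1 * htr - hdet + (-1 : F) * h2
  have hd : orderOf g ∣ 2 := orderOf_dvd_of_pow_eq_one (by rw [pow_two, hsq])
  rcases (Nat.dvd_prime Nat.prime_two).1 hd with e | e
  · exact orderOf_eq_one_iff.1 e
  · rw [e] at hodd
    exact absurd hodd (by decide)

theorem DataB.eq_psl (h : DataB M z) {a : ℕ} (ha : 2 ≤ a)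
    (hC : Nat.card 𝒞 = 2 ^ (a + 1)) (hm : Nat.card M = 2 ^ (a + 1) + 1)
    (hs : Nat.card {v : G // v ∈ 𝒞 ∧ IsConj z v} = Nat.card 𝒞 - 1) :
    ∃ (F : Type) (_ : Field F) (_ : Fintype F) (e : ℕ), 1 < e ∧ Fintype.card F = 2 ^ e ∧
      IsCyclic ↥M ∧ Nat.card M = 2 ^ e + 1 ∧
      Nonempty (G ≃* Matrix.ProjectiveSpecialLinearGroup (Fin 2) F) := by
  classical
  haveI := Fintype.ofFinite G
  haveI := Fact.mk Nat.prime_two
  have hP : 8 ≤ 2 ^ (a + 1) := le_trans (by norm_num)
    (Nat.pow_le_pow_right (show 0 < 2 by norm_num) (show 3 ≤ a + 1 by omega))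
  have hall : ∀ w : G, w * w = 1 → w ≠ 1 → IsConj z w := by
    intro w hw hw1
    obtain ⟨⟨y, v, hv, hv1⟩, e⟩ := h.conj_bij.2 w hw hw1
    suffices hz : IsConj z v from hz.trans (isConj_iff.2 ⟨_, e⟩)
    by_contra hvz
    have hlt : Nat.card {v : G // v ∈ 𝒞 ∧ IsConj z v} < Nat.card {x : 𝒞 // x ≠ 1} := by
      rw [Nat.card_eq_fintype_card, Nat.card_eq_fintype_card]
      refine Fintype.card_lt_of_injective_of_notMem
        (fun v : {v : G // v ∈ 𝒞 ∧ IsConj z v} => (⟨⟨v, v.2.1⟩, fun e' =>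
          (h.sq_of_conj v.2.2).2 (congrArg Subtype.val e')⟩ : {x : 𝒞 // x ≠ 1}))
        (fun v w e' => Subtype.ext (congrArg (fun x : {x : 𝒞 // x ≠ 1} => ((x : 𝒞) : G)) e'))
        (b := ⟨⟨v, hv⟩, fun e' => hv1 (congrArg Subtype.val e')⟩) ?_
      rintro ⟨u, e'⟩
      exact hvz (by
        have e2 : (u : G) = v := congrArg (fun x : {x : 𝒞 // x ≠ 1} => ((x : 𝒞) : G)) e'
        rw [← e2]
        exact u.2.2)
    rw [hs, Nat.card_eq_fintype_card (α := {x : 𝒞 // x ≠ 1}), Fintype.card_subtype_compl,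
      Fintype.card_subtype_eq, ← Nat.card_eq_fintype_card] at hlt
    omega
  have hGcard : Nat.card G = Nat.card M * (2 ^ (a + 1) - 1) * 2 ^ (a + 1) := by
    rw [← h.card_conj_mul, h.card_conj, hs, hC]
  have hfac : (Nat.card G).factorization 2 = a + 1 := by
    have hoddm : Odd (Nat.card M * (2 ^ (a + 1) - 1)) := h.odd_card.mul
      (Nat.Even.sub_odd (by omega) (Nat.even_pow.2 ⟨even_two, by omega⟩) odd_one)
    rw [hGcard, Nat.factorization_mul (Nat.pos_of_ne_zero (fun e => by
        rw [e] at hoddm; exact absurd hoddm (by decide))).ne' (by positivity), Finsupp.add_apply,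
      Nat.factorization_eq_zero_of_not_dvd hoddm.not_two_dvd_nat,
      Nat.prime_two.factorization_pow, Finsupp.single_eq_same, zero_add]
  let T : Sylow 2 G := Sylow.ofCard 𝒞 (by rw [hC, hfac])
  have hT : (T : Subgroup G) = 𝒞 := rfl
  have hcentconj : ∀ t : G, orderOf t = 2 →
      IsMulCommutative (Subgroup.centralizer ({t} : Set G)) ∧
        ∀ c ∈ Subgroup.centralizer ({t} : Set G), c ^ 2 = 1 := by
    intro t ht
    have ht2 : t * t = 1 := by rw [← pow_two, ← ht]; exact pow_orderOf_eq_one t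
    obtain ⟨g, rfl⟩ := isConj_iff.1 (hall t ht2 fun e => by
      rw [e, orderOf_one] at ht; omega)
    have hmem : ∀ c ∈ Subgroup.centralizer ({g * z * g⁻¹} : Set G), g⁻¹ * c * g ∈ 𝒞 := by
      intro c hc
      refine Subgroup.mem_centralizer_singleton_iff.2 ?_
      have e := Subgroup.mem_centralizer_singleton_iff.1 hc
      calc g⁻¹ * c * g * z = g⁻¹ * (c * (g * z * g⁻¹)) * g := by group
        _ = g⁻¹ * (g * z * g⁻¹ * c) * g := by rw [e]
        _ = z * (g⁻¹ * c * g) := by group
    refine ⟨⟨⟨fun c d => Subtype.ext ?_⟩⟩, fun c hc => ?_⟩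
    · have e := h.cent_comm (hmem c c.2) (hmem d d.2)
      calc (c : G) * d = g * ((g⁻¹ * c * g) * (g⁻¹ * d * g)) * g⁻¹ := by group
        _ = g * ((g⁻¹ * d * g) * (g⁻¹ * c * g)) * g⁻¹ := by rw [e]
        _ = d * c := by group
    · calc c ^ 2 = g * ((g⁻¹ * c * g) * (g⁻¹ * c * g)) * g⁻¹ := by rw [pow_two]; group
        _ = 1 := by rw [h.cent_sq_all (hmem c hc)]; group
  have hHyp : CfsgLib.StronglyEmbedded.AbelianCentralizer.Hyp T := by
    refine ⟨fun hcyc => ?_, fun hn => ?_, hcentconj⟩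
    · obtain ⟨x, hx⟩ := hcyc.exists_generator
      have h1 : Nat.card (T : Subgroup G) ≤ 2 := by
        rw [← orderOf_eq_card_of_forall_mem_zpowers hx]
        refine Nat.le_of_dvd (by norm_num) (orderOf_dvd_of_pow_eq_one (Subtype.ext ?_))
        rw [pow_two]
        exact h.cent_sq_all x.2
      rw [hT, hC] at h1
      omega
    · -- `C(z)` normal would force `M` to centralise it
      obtain ⟨x, hx, hx1⟩ := M.bot_or_exists_ne_one.resolve_left h.ne_bot
      have := hn.conj_mem z (h.z_mem_C) x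
      exact hx1 (h.conj_z_mem hx this)
  obtain ⟨F, iF, iT, hchar, hFc, ⟨e⟩⟩ := CfsgLib.CAGroups.nonempty_mulEquiv_sl2 hHyp
  haveI := hchar
  refine ⟨F, iF, iT, a + 1, by omega, by rw [hFc, ← hC]; rfl, ?_, hm, ⟨e.trans
    ((QuotientGroup.quotientBot (G := Matrix.SpecialLinearGroup (Fin 2) F)).symm.trans
      (QuotientGroup.quotientMulEquivOfEq CfsgLib.SL2.center_eq_bot.symm))⟩⟩
  let ρ : Representation F M (Fin 2 → F) :=
    { toFun := fun x => Matrix.toLin' (e (x : G) : Matrix (Fin 2) (Fin 2) F)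
      map_one' := by simp [Module.End.one_eq_id]
      map_mul' := fun x y => by simp [Matrix.toLin'_mul, Module.End.mul_eq_comp] }
  refine CfsgLib.Frobenius.Linear.isCyclic_of_comm (ρ := ρ) ?_
    (fun x y => Subtype.ext (h.comm x.2 y.2))
  intro x hx1 v hxv
  by_contra hv
  refine hx1 ?_
  have hodd : Odd (orderOf (e (x : G))) := by
    rw [e.orderOf_eq, Subgroup.orderOf_coe]
    exact h.odd_card.of_dvd_nat (orderOf_dvd_natCard x)
  have := sl2_eq_one_of_fix (e (x : G)) v hv (by simpa [ρ] using hxv) hodd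
  exact Subtype.ext (e.injective (this.trans (map_one e).symm))

end CfsgLib.TICount
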