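import Cfsg.Agent.TICount.CaseA
import Mathlib.FieldTheory.Finite.Basic

/-!
The case of two fixed points: `G` is `PGL(2, q)` or `PSL(2, q)` with `q = |M|`.
-/

set_option autoImplicit false
set_option linter.style.haveILetI false
set_option linter.unusedSectionVars false

namespace CfsgLib.TICount

open MulAction

variable {G : Type*} [Group G] [Finite G] {M : Subgroup G} {z : G}

local notation "𝒩" => Subgroup.normalizer (M : Set G)
local notation "𝒞" => Subgroup.centralizer (Singleton.singleton z : Set G)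

theorem Data.eq_pgl_or_psl (h : Data M z) (hM : M ≠ ⊥)
    (hA : ∀ c ∈ 𝒞, ∀ d ∈ 𝒞, c ∉ 𝒩 → d ∉ 𝒩 → c * d ∈ 𝒩) :
    ∃ (F : Type) (_ : Field F) (_ : Fintype F) (p : ℕ) (_ : Fact p.Prime) (_ : CharP F p),
      Fintype.card F = Nat.card M ∧ (IsMulCommutative M ∧ ∀ a ∈ M, a ^ p = 1) ∧
      (Nonempty (G ≃* Matrix.ProjGenLinGroup (Fin 2) F) ∨
       (Fintype.card F % 4 = 1 ∧
         Nonempty (G ≃* Matrix.ProjectiveSpecialLinearGroup (Fin 2) F))) := by
  classical
  obtain ⟨c, hc, hcN⟩ := h.exists_cent_out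
  let D := h.setting hA hc hcN hM
  have hH : D.H = 𝒩 ⊓ 𝒞 := by
    ext g
    rw [D.mem_H]
    exact h.pair_stab hc hcN
  have hzK : z ∈ 𝒩 ⊓ 𝒞 := ⟨h.zN, Subgroup.mem_centralizer_singleton_iff.2 rfl⟩
  have hk2 : Even (Nat.card D.H) := by
    rw [hH]
    refine even_iff_two_dvd.2 ?_
    have := orderOf_dvd_natCard (⟨z, hzK⟩ : ↥(𝒩 ⊓ 𝒞))
    rwa [Subgroup.orderOf_mk, orderOf_eq_prime (p := 2) (by rw [pow_two, h.z2]) h.z1] at this
  have hc' : ∀ a ∈ D.H, ∀ b ∈ D.H, a * b = b * a := by
    rw [hH]
    intro a ha b hb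
    have h3 := h.cent_inverts hc hcN (mul_mem ha hb)
    have h4 : c * (a * b) * c = (c * a * c) * (c * b * c) := by
      calc c * (a * b) * c = c * a * 1 * b * c := by group
        _ = c * a * (c * c) * b * c := by rw [h.cent_sq hc hcN]
        _ = _ := by group
    rw [h4, h.cent_inverts hc hcN ha, h.cent_inverts hc hcN hb, ← mul_inv_rev, inv_inj] at h3
    exact h3.symm
  have key : (Nat.card D.H = Nat.card M - 1) ∨
      (2 * Nat.card D.H = Nat.card M - 1 ∧ D.Inverted) := by
    rcases CfsgLib.ZassAbelian.classify D with h1 | h1 | ⟨R, hRn, hRt, hRf⟩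
    · exact Or.inl h1
    · exact Or.inr h1
    left
    have hcardR : Nat.card R = Nat.card M + 1 := by
      rw [← show Nat.card D.F = Nat.card M from rfl, ← D.card_Omega]
      refine Nat.card_eq_of_bijective (fun r : R => (r : G) • D.i) ⟨fun r s e => ?_, fun q => ?_⟩
      · have e' : (r : G) • D.i = (s : G) • D.i := e
        exact Subtype.ext (inv_mul_eq_one.1 (hRf _ (mul_mem (inv_mem r.2) s.2) D.i
          (by rw [mul_smul, ← e', inv_smul_smul])))
      · obtain ⟨r, hr, e⟩ := hRt D.i q
        exact ⟨⟨r, hr⟩, e⟩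
    obtain ⟨j, hj⟩ := h.odd_card
    haveI := Fact.mk Nat.prime_two
    obtain ⟨r₀, hr₀⟩ := exists_prime_orderOf_dvd_card' (G := R) 2 ⟨j + 1, by omega⟩
    have hne : ∀ r : R, r ≠ 1 → (r : G) • D.i ≠ D.i := fun r hr e =>
      hr (Subtype.ext (hRf r r.2 D.i e))
    have hr₀1 : r₀ ≠ 1 := fun e => by rw [e, orderOf_one] at hr₀; omega
    have hexp : ∀ r : R, r * r = 1 := by
      intro r
      by_cases hr : r = 1
      · rw [hr, one_mul]
      obtain ⟨n, hn, e⟩ := D.reg _ _ (hne r hr) (hne r₀ hr₀1)
      have h1 : (n * (r : G) * n⁻¹)⁻¹ * r₀ = 1 := by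
        refine hRf _ (mul_mem (inv_mem (hRn.conj_mem r r.2 n)) r₀.2) D.i ?_
        rw [mul_smul, ← e, inv_smul_eq_iff, mul_smul, mul_smul,
          show n⁻¹ • D.i = D.i by rw [inv_smul_eq_iff, D.Fle n hn]]
      have h2 : (n * (r : G) * n⁻¹) = r₀ := inv_mul_eq_one.1 h1
      have h3 : (r₀ : G) * r₀ = 1 := by
        have := pow_orderOf_eq_one r₀
        rw [hr₀, pow_two] at this
        exact congrArg Subtype.val this
      rw [← h2] at h3
      have h4 : n * ((r : G) * r) * n⁻¹ = 1 := by rw [← h3]; group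
      exact Subtype.ext (conj_eq_one_iff.1 h4)
    have hcomm : ∀ r s : R, r * s = s * r := fun r s => by
      have hrs := hexp (r * s)
      calc r * s = r * (r * s * (r * s)) * s := by rw [hrs, mul_one]
        _ = (r * r) * s * r * (s * s) := by group
        _ = s * r := by rw [hexp r, hexp s, one_mul, mul_one]
    have hz : ∀ r : G, r ∈ R → z * r * z ∈ R := fun r hr => by
      have := hRn.conj_mem r hr z
      rwa [h.zinv] at this
    let f : R →* R :=
      { toFun := fun r => r * ⟨z * r * z, hz r r.2⟩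
        map_one' := Subtype.ext (by simp [h.z2])
        map_mul' := fun r s => by
          have e : (⟨z * (r * s : R) * z, hz _ (r * s).2⟩ : R) =
              ⟨z * r * z, hz r r.2⟩ * ⟨z * s * z, hz s s.2⟩ := Subtype.ext (by
            show z * ((r : G) * s) * z = z * r * z * (z * s * z)
            calc z * ((r : G) * s) * z = z * r * 1 * s * z := by group
              _ = z * r * (z * z) * s * z := by rw [h.z2]
              _ = _ := by group)
          rw [e, mul_assoc r s, ← mul_assoc s, hcomm s ⟨z * r * z, hz r r.2⟩]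
          simp only [mul_assoc] }
    -- the fixed points of `z` are the two points
    have hfix : ∀ r : R, f r = 1 → (r : G) • D.i = D.i ∨ (r : G) • D.i = D.o := by
      intro r hr
      have h1 : (r : G) * (z * r * z) = 1 := congrArg Subtype.val hr
      have h2 : z * r * z = r :=
        (inv_eq_of_mul_eq_one_right h1).symm.trans (inv_eq_of_mul_eq_one_right
          (congrArg Subtype.val (hexp r)))
      have hzH : z ∈ D.H := by rw [hH]; exact hzK
      refine D.fixed_eq h.z1 D.io (D.mem_H.1 hzH).1 (D.mem_H.1 hzH).2 ?_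
      conv_rhs => rw [← h2]
      rw [mul_smul, mul_smul, (D.mem_H.1 hzH).1]
    have hker : Nat.card f.ker ≤ 2 := by
      have hinj : Function.Injective fun r : f.ker => decide (((r : R) : G) • D.i = D.i) := by
        intro r s e
        have e1 : ((r : R) : G) • D.i = D.i ↔ ((s : R) : G) • D.i = D.i := by simpa using e
        have e2 : ((r : R) : G) • D.i = ((s : R) : G) • D.i := by
          rcases hfix _ r.2 with a | a <;> rcases hfix _ s.2 with b | b
          · rw [a, b]
          · rw [e1.1 a, a]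
          · rw [e1.2 b, b]
          · rw [a, b]
        exact Subtype.ext (Subtype.ext (inv_mul_eq_one.1 (hRf _
          (mul_mem (inv_mem (r : R).2) (s : R).2) D.i (by rw [mul_smul, ← e2, inv_smul_smul]))))
      have := Nat.card_le_card_of_injective _ hinj
      simpa using this
    have hrange : f.range ≤ f.ker := by
      rintro _ ⟨r, rfl⟩
      rw [MonoidHom.mem_ker]
      refine Subtype.ext ?_
      show (r : G) * (z * r * z) * (z * ((r : G) * (z * r * z)) * z) = 1
      have h5 : z * ((r : G) * (z * r * z)) * z = (z * r * z) * r := by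
        calc z * ((r : G) * (z * r * z)) * z = z * r * z * r * (z * z) := by group
          _ = (z * r * z) * r := by rw [h.z2, mul_one]
      rw [h5]
      calc (r : G) * (z * r * z) * (z * r * z * r)
          = (r : G) * ((z * r * z) * (z * r * z)) * r := by group
        _ = 1 := by
            have h6 := congrArg Subtype.val (hexp ⟨z * r * z, hz r r.2⟩)
            simp only [Subgroup.coe_mul, Subgroup.coe_one] at h6
            rw [h6, mul_one]
            exact congrArg Subtype.val (hexp r)
    have h4 : Nat.card R ≤ 4 := by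
      rw [← f.ker.card_mul_index, Subgroup.index_ker]
      exact le_trans (Nat.mul_le_mul hker ((Subgroup.card_le_of_le hrange).trans hker)) le_rfl
    have := D.two_le_q
    have hF : Nat.card D.F = Nat.card M := rfl
    have hd := Nat.le_of_dvd (by omega) D.d_dvd
    have := Nat.card_pos (α := D.H)
    rw [Nat.even_iff] at hk2
    omega
  have hd : Nat.card M - 1 ≤ 2 * Nat.card D.H := by rcases key with a | ⟨a, -⟩ <;> omega
  have hkinj : ∀ v ∈ M, v ≠ 1 → Function.Injective fun a : D.H => (a : G) * v * (a : G)⁻¹ := by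
    intro v hv hv1 a b e
    have hab : Commute ((b : G)⁻¹ * a) v := by
      show (b : G)⁻¹ * a * v = v * ((b : G)⁻¹ * a)
      calc (b : G)⁻¹ * a * v = (b : G)⁻¹ * ((a : G) * v * (a : G)⁻¹) * a := by group
        _ = v * ((b : G)⁻¹ * a) := by rw [show (a : G) * v * (a : G)⁻¹ = _ from e]; group
    have := D.eq_one_of_commute (mul_mem (inv_mem b.2) a.2) hv hv1 hab
    exact (Subtype.ext (inv_mul_eq_one.1 this)).symm
  obtain ⟨p, hp, hpM⟩ := Nat.exists_prime_and_dvd
    (show Nat.card M ≠ 1 from fun e => hM (Subgroup.eq_bot_of_card_eq _ e))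
  haveI := Fact.mk hp
  haveI hMc : IsMulCommutative M := ⟨⟨fun a b => Subtype.ext (h.comm a.2 b.2)⟩⟩
  have hexpp : ∀ a ∈ M, a ^ p = 1 := by
    by_contra hno
    push Not at hno
    obtain ⟨v, hv, hvp⟩ := hno
    obtain ⟨u, hu⟩ := exists_prime_orderOf_dvd_card' (G := M) p hpM
    have hu1 : (u : G) ≠ 1 := fun e => by
      rw [show u = 1 from Subtype.ext e, orderOf_one] at hu; exact hp.ne_one hu.symm
    have hup : (u : G) ^ p = 1 := by
      have := pow_orderOf_eq_one u; rw [hu] at this; exact congrArg Subtype.val this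
    let S : Subgroup M :=
      { carrier := {a | a ^ p = 1}
        one_mem' := one_pow p
        mul_mem' := fun {a b} ha hb => by
          show (a * b) ^ p = 1
          rw [Commute.mul_pow (show Commute a b from Subtype.ext (h.comm a.2 b.2))]
          rw [show a ^ p = 1 from ha, show b ^ p = 1 from hb, one_mul]
        inv_mem' := fun {a} ha => by
          show a⁻¹ ^ p = 1
          rw [inv_pow, show a ^ p = 1 from ha, inv_one] }
    haveI := Fintype.ofFinite M
    have hpow : ∀ (a : D.H) (x : G), ((a : G) * x * (a : G)⁻¹) ^ p = (a : G) * x ^ p * (a : G)⁻¹ :=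
      fun a x => by rw [← MulAut.conj_apply, ← map_pow, MulAut.conj_apply]
    have h1 : Nat.card D.H ≤ Nat.card S - 1 := by
      have := Nat.card_le_card_of_injective
        (fun a : D.H => (⟨⟨⟨_, D.conj_F_of_H a.2 u.2⟩, Subtype.ext (by
          show ((a : G) * u * (a : G)⁻¹) ^ p = 1
          rw [hpow, hup, mul_one, mul_inv_cancel])⟩, fun e => hu1 (conj_eq_one_iff.1
          (congrArg (fun s : S => ((s : M) : G)) e))⟩ : {s : S // s ≠ 1}))
        (fun a b e => hkinj _ u.2 hu1 (congrArg (fun s : {s : S // s ≠ 1} =>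
          ((s.1 : M) : G)) e))
      rwa [Nat.card_eq_fintype_card (α := {s : S // s ≠ 1}), Fintype.card_subtype_compl,
        Fintype.card_subtype_eq, ← Nat.card_eq_fintype_card] at this
    have h2 : Nat.card D.H ≤ Nat.card M - Nat.card S := by
      have := Nat.card_le_card_of_injective
        (fun a : D.H => (⟨⟨_, D.conj_F_of_H a.2 hv⟩, fun hmem => hvp (by
          have h3 : ((a : G) * v * (a : G)⁻¹) ^ p = 1 := congrArg Subtype.val hmem
          rw [hpow] at h3
          exact conj_eq_one_iff.1 h3)⟩ : {s : M // ¬ s ∈ S}))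
        (fun a b e => hkinj v hv (fun e1 => hvp (by rw [e1, one_pow]))
          (congrArg (fun s : {s : M // ¬ s ∈ S} => (s.1 : G)) e))
      rwa [Nat.card_eq_fintype_card (α := {s : M // ¬ s ∈ S}), Fintype.card_subtype_compl,
        ← Nat.card_eq_fintype_card, ← Nat.card_eq_fintype_card] at this
    obtain ⟨j, hj⟩ := Subgroup.card_subgroup_dvd_card S
    have := Nat.card_pos (α := D.H)
    rcases j with _ | _ | j
    · omega
    · omega
    · rw [show j + 1 + 1 = j + 2 from rfl] at hj
      have := Nat.mul_le_mul_left (Nat.card S) (show 2 ≤ j + 2 by omega)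
      omega
  have hchar : ∀ (K : Type) [Field K] [Fintype K], Fintype.card K = Nat.card M → CharP K p := by
    intro K _ _ hK
    obtain ⟨r, hr⟩ := CharP.exists K
    haveI := hr
    obtain ⟨m, hr', hm⟩ := FiniteField.card K r
    rw [hK] at hm
    rw [← show r = p from ((Nat.prime_dvd_prime_iff_eq hp hr').1
      (hp.dvd_of_dvd_pow (hm ▸ hpM))).symm]
    exact hr
  rcases key with hd1 | ⟨hd1, hinv⟩
  · obtain ⟨K, iF, iT, hK, hne⟩ := CfsgLib.ZassAbelian.pgl_of_commutative D hd1 hc'
    exact ⟨K, iF, iT, p, inferInstance, hchar K hK, hK, ⟨hMc, hexpp⟩, Or.inl hne⟩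
  · obtain ⟨K, iF, iT, hK, hodd, hne⟩ := CfsgLib.ZassAbelian.psl_of_inverted D hd1 hinv
    refine ⟨K, iF, iT, p, inferInstance, hchar K hK, hK, ⟨hMc, hexpp⟩, Or.inr ⟨?_, hne⟩⟩
    have hK' : Fintype.card K = Nat.card M := hK
    obtain ⟨j, hj⟩ := hk2
    obtain ⟨i, hi⟩ := h.odd_card
    omega

end CfsgLib.TICount
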