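import Mathlib.GroupTheory.FixedPointFree
import Mathlib.GroupTheory.OrderOfElement
import Mathlib.GroupTheory.Coset.Card
import Mathlib.GroupTheory.Sylow

/-!
A trivial intersection subgroup `M` inverted by an involution `z` of its normaliser, with odd
centralisers of its non-identity elements and more involutions than cosets: every coset of `M`
outside the normaliser contains an involution.
-/

set_option autoImplicit false
set_option linter.style.haveILetI false

namespace CfsgLib.TICount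

variable {G : Type*} [Group G]

/-- The hypotheses on `M` and `z`. -/
structure Hyp (M : Subgroup G) (z : G) : Prop where
  ne_bot : M ≠ ⊥
  ti : ∀ g x : G, x ∈ M → x ≠ 1 → g * x * g⁻¹ ∈ M → g ∈ Subgroup.normalizer (M : Set G)
  z1 : z ≠ 1
  z2 : z * z = 1
  zN : z ∈ Subgroup.normalizer (M : Set G)
  fac : M ⊔ (Subgroup.normalizer (M : Set G) ⊓ Subgroup.centralizer ({z} : Set G)) =
    Subgroup.normalizer (M : Set G)
  odd : ∀ x ∈ M, x ≠ 1 → Odd (Nat.card ↥(Subgroup.centralizer ({x} : Set G)))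

theorem mk_of_ti {M : Subgroup G}
    (hTI : ∀ g : G, M ⊓ M.map (MulAut.conj g).toMonoidHom ≠ ⊥ →
      M.map (MulAut.conj g).toMonoidHom = M)
    (g x : G) (hx : x ∈ M) (hx1 : x ≠ 1) (hg : g * x * g⁻¹ ∈ M) :
    g ∈ Subgroup.normalizer (M : Set G) := by
  have hmem : g * x * g⁻¹ ∈ M.map (MulAut.conj g).toMonoidHom := ⟨x, hx, rfl⟩
  have heq := hTI g (fun e => hx1 (conj_eq_one_iff.1 (by
    have := Subgroup.mem_inf.2 ⟨hg, hmem⟩
    rwa [e, Subgroup.mem_bot] at this)))
  rw [Subgroup.mem_normalizer_iff]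
  intro y
  constructor
  · intro hy
    rw [← heq]
    exact ⟨y, hy, rfl⟩
  · intro hy
    rw [← heq] at hy
    obtain ⟨y', hy', e⟩ := hy
    have e' : g * y' * g⁻¹ = g * y * g⁻¹ := e
    rwa [← mul_left_cancel (mul_right_cancel e')]

variable {M : Subgroup G} {z : G}

local notation "𝒩" => Subgroup.normalizer (M : Set G)
local notation "𝒞" => Subgroup.centralizer (Singleton.singleton z : Set G)

theorem conj_memM {n x : G} (hn : n ∈ 𝒩) (hx : x ∈ M) : n * x * n⁻¹ ∈ M :=
  (Subgroup.mem_normalizer_iff.1 hn x).1 hx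

theorem memN_of_memM {x : G} (hx : x ∈ M) : x ∈ 𝒩 := Subgroup.le_normalizer hx

namespace Hyp

variable (h : Hyp M z)

include h

theorem zinv : z⁻¹ = z := inv_eq_of_mul_eq_one_right h.z2

theorem eq_one_of_commute [Finite G] {x w : G} (hx : x ∈ M) (hw : w * w = 1) (hw1 : w ≠ 1)
    (hc : w * x = x * w) : x = 1 := by
  by_contra hx1
  have hmem : w ∈ Subgroup.centralizer ({x} : Set G) :=
    Subgroup.mem_centralizer_singleton_iff.2 hc
  have := orderOf_dvd_natCard (⟨w, hmem⟩ : Subgroup.centralizer ({x} : Set G))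
  rw [Subgroup.orderOf_mk, orderOf_eq_prime (p := 2) (by rw [pow_two, hw]) hw1] at this
  exact (h.odd x hx hx1).not_two_dvd_nat this

theorem eq_one_of_sq [Finite G] {x : G} (hx : x ∈ M) (hxx : x * x = 1) : x = 1 := by
  by_contra hx1
  exact hx1 (h.eq_one_of_commute hx hxx hx1 rfl)

theorem odd_card [Finite G] : Odd (Nat.card M) := by
  by_contra hodd
  haveI := Fact.mk Nat.prime_two
  obtain ⟨x, hx⟩ := exists_prime_orderOf_dvd_card' (G := M) 2
    (Nat.not_odd_iff_even.1 hodd).two_dvd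
  have h2 : (x : G) * x = 1 := by
    have := pow_orderOf_eq_one x
    rw [hx, pow_two] at this
    exact congrArg Subtype.val this
  have h1 := h.eq_one_of_sq x.2 h2
  rw [show x = 1 from Subtype.ext h1, orderOf_one] at hx
  omega

/-- An involution of the normaliser inverts `M`. -/
theorem inverts [Finite G] {w x : G} (hw : w ∈ 𝒩) (hw2 : w * w = 1) (hw1 : w ≠ 1) (hx : x ∈ M) :
    w * x * w = x⁻¹ := by
  have hwinv : w⁻¹ = w := inv_eq_of_mul_eq_one_right hw2
  let f : M →* M :=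
    { toFun := fun y => ⟨w * y * w⁻¹, conj_memM hw y.2⟩
      map_one' := Subtype.ext (by simp)
      map_mul' := fun a b => Subtype.ext (by simp [mul_assoc]) }
  have hf : MonoidHom.FixedPointFree f := fun y hy => Subtype.ext
    (h.eq_one_of_commute y.2 hw2 hw1 (mul_inv_eq_iff_eq_mul.1 (congrArg Subtype.val hy)))
  have h2 : Function.Involutive f := fun y => Subtype.ext (by
    show w * (w * (y : G) * w⁻¹) * w⁻¹ = y
    rw [hwinv]
    calc w * (w * (y : G) * w) * w = (w * w) * y * (w * w) := by group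
      _ = y := by rw [hw2, one_mul, mul_one])
  have := congrArg Subtype.val (congrFun (hf.coe_eq_inv_of_involutive h2) ⟨x, hx⟩)
  rwa [show ((f ⟨x, hx⟩ : M) : G) = w * x * w⁻¹ from rfl, hwinv] at this

theorem zxz [Finite G] {x : G} (hx : x ∈ M) : z * x * z = x⁻¹ := h.inverts h.zN h.z2 h.z1 hx

theorem z_mul [Finite G] {x : G} (hx : x ∈ M) : z * x = x⁻¹ * z := by
  rw [← h.zxz hx, mul_assoc, h.z2, mul_one]

theorem comm [Finite G] {x y : G} (hx : x ∈ M) (hy : y ∈ M) : x * y = y * x := by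
  have h1 := h.zxz (mul_mem hx hy)
  have h2 : z * (x * y) * z = (z * x * z) * (z * y * z) := by
    calc z * (x * y) * z = z * x * 1 * y * z := by group
      _ = z * x * (z * z) * y * z := by rw [h.z2]
      _ = _ := by group
  rw [h2, h.zxz hx, h.zxz hy, mul_inv_rev] at h1
  have := congrArg (·⁻¹) h1
  simpa [mul_inv_rev] using this.symm

theorem exists_mul {n : G} (hn : n ∈ 𝒩) : ∃ x ∈ M, ∃ k ∈ 𝒩 ⊓ 𝒞, n = x * k := by
  rw [← h.fac] at hn
  have hn' : n ∈ (↑(M ⊔ (𝒩 ⊓ 𝒞)) : Set G) := hn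
  rw [Subgroup.coe_mul_of_right_le_normalizer_left M _ inf_le_left] at hn'
  obtain ⟨x, hx, k, hk, rfl⟩ := Set.mem_mul.1 hn'
  exact ⟨x, hx, k, hk, rfl⟩

theorem eq_one_of_mem_of_comm [Finite G] {x : G} (hx : x ∈ M) (hc : x ∈ 𝒞) : x = 1 :=
  h.eq_one_of_commute hx h.z2 h.z1 (Subgroup.mem_centralizer_singleton_iff.1 hc).symm

/-- The normaliser is abelian-by-central: `z` is central modulo `M`. -/
theorem z_central_mod [Finite G] {n : G} (hn : n ∈ 𝒩) : z * n * z * n⁻¹ ∈ M := by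
  obtain ⟨x, hx, k, hk, rfl⟩ := h.exists_mul hn
  have hkz : k * z = z * k := Subgroup.mem_centralizer_singleton_iff.1 hk.2
  have e : z * (x * k) * z * (x * k)⁻¹ = x⁻¹ * x⁻¹ := by
    calc z * (x * k) * z * (x * k)⁻¹ = z * x * (k * z) * (k⁻¹ * x⁻¹) := by group
      _ = z * x * z * x⁻¹ := by rw [hkz]; group
      _ = x⁻¹ * x⁻¹ := by rw [h.zxz hx]
  rw [e]
  exact mul_mem (inv_mem hx) (inv_mem hx)

theorem exists_sqrt [Finite G] {x : G} (hx : x ∈ M) : ∃ y ∈ M, y * y = x := by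
  obtain ⟨j, hj⟩ := h.odd_card
  refine ⟨x ^ (j + 1), pow_mem hx _, ?_⟩
  have h1 : x ^ Nat.card M = 1 :=
    congrArg Subtype.val (pow_card_eq_one' (x := (⟨x, hx⟩ : M)))
  rw [← pow_add, show j + 1 + (j + 1) = Nat.card M + 1 by omega, pow_succ, h1, one_mul]

/-- An involution of the normaliser is conjugate to `z` under `M`. -/
theorem invol_conj [Finite G] {w : G} (hw : w ∈ 𝒩) (hw2 : w * w = 1) (hw1 : w ≠ 1) :
    ∃ y ∈ M, w = y * z * y⁻¹ := by
  obtain ⟨x, hx, k, hk, rfl⟩ := h.exists_mul hw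
  have hkN : k ∈ 𝒩 := hk.1
  have hkz : k * z = z * k := Subgroup.mem_centralizer_singleton_iff.1 hk.2
  have hkinv : ∀ y ∈ M, k * y * k⁻¹ = y⁻¹ := by
    intro y hy
    have h3 := h.inverts hw hw2 hw1 hy
    have h4 : (x * k)⁻¹ = x * k := inv_eq_of_mul_eq_one_right hw2
    calc k * y * k⁻¹ = x⁻¹ * ((x * k) * y * (x * k)⁻¹) * x := by group
      _ = x⁻¹ * y⁻¹ * x := by rw [h4, h3]
      _ = y⁻¹ := by rw [mul_assoc, h.comm (inv_mem hy) hx]; group
  have hk2 : k * k = 1 := by
    calc k * k = x * (k * x * k⁻¹) * (k * k) := by rw [hkinv x hx]; group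
      _ = (x * k) * (x * k) := by group
      _ = 1 := hw2
  obtain ⟨y, hy, hy1⟩ := M.bot_or_exists_ne_one.resolve_left h.ne_bot
  have hkz1 : k * z = 1 := by
    by_contra hne
    refine hy1 (h.eq_one_of_commute hy ?_ hne ?_)
    · calc k * z * (k * z) = k * (z * k) * z := by group
        _ = (k * k) * (z * z) := by rw [← hkz]; group
        _ = 1 := by rw [hk2, h.z2, one_mul]
    · calc k * z * y = k * (z * y) := by group
        _ = (k * y⁻¹ * k⁻¹) * (k * z) := by rw [h.z_mul hy]; group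
        _ = y * (k * z) := by rw [hkinv _ (inv_mem hy), inv_inv]
  have hkeq : k = z := by rw [← h.zinv]; exact eq_inv_of_mul_eq_one_left hkz1
  obtain ⟨r, hr, hrr⟩ := h.exists_sqrt hx
  refine ⟨r, hr, ?_⟩
  rw [mul_assoc r z r⁻¹, h.z_mul (inv_mem hr), inv_inv, hkeq, ← mul_assoc, hrr]

end Hyp

end CfsgLib.TICount
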