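import Cfsg.Agent.TICount.Full
import Cfsg.Agent.ZassAbelian.Final

/-!
The case where the centraliser of `z` exchanges only two fixed points: a Zassenhaus group with
abelian kernel `M` and commutative two point stabiliser of even order.
-/

set_option autoImplicit false
set_option linter.style.haveILetI false
set_option linter.unusedSectionVars false

namespace CfsgLib.TICount

open MulAction

variable {G : Type*} [Group G] [Finite G] {M : Subgroup G} {z : G}

local notation "𝒩" => Subgroup.normalizer (M : Set G)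
local notation "𝒞" => Subgroup.centralizer (Singleton.singleton z : Set G)
local notation "Ω" => G ⧸ Subgroup.normalizer (M : Set G)
local notation "pt" g:max => (QuotientGroup.mk g : G ⧸ Subgroup.normalizer (M : Set G))

theorem pt_eq {g h : G} : pt g = pt h ↔ g⁻¹ * h ∈ 𝒩 := QuotientGroup.eq

theorem smul_pt (g h : G) : g • pt h = pt (g * h) := rfl

namespace Data

variable (h : Data M z)

include h

theorem exists_cent_out : ∃ c ∈ 𝒞, c ∉ 𝒩 := by
  obtain ⟨g, hg⟩ := h.exists_out
  obtain ⟨-, -, c, hc, hcN, -⟩ := h.exists_point hg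
  exact ⟨c, hc, hcN⟩

section CaseA

variable (hA : ∀ c ∈ Subgroup.centralizer (Singleton.singleton z : Set G),
    ∀ d ∈ Subgroup.centralizer (Singleton.singleton z : Set G),
      c ∉ Subgroup.normalizer (M : Set G) → d ∉ Subgroup.normalizer (M : Set G) →
        c * d ∈ Subgroup.normalizer (M : Set G))
  {c : G} (hc : c ∈ Subgroup.centralizer (Singleton.singleton z : Set G))
  (hcN : c ∉ Subgroup.normalizer (M : Set G))

include hA hc hcN

theorem exists_smul_b {p : Ω} (hp : p ≠ pt 1) : ∃ y ∈ M, p = y • pt c := by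
  induction p using QuotientGroup.induction_on with
  | H g =>
    have hg : g ∉ 𝒩 := fun hmem => hp (pt_eq.2 (by rw [mul_one]; exact inv_mem hmem))
    obtain ⟨y, hy, d, hd, hdN, e⟩ := h.exists_point hg
    refine ⟨y, hy, ?_⟩
    rw [smul_pt, pt_eq]
    have h1 : d * c ∈ 𝒩 := hA d hd c hc hdN hcN
    have := mul_mem (inv_mem e) h1
    convert this using 1
    rw [mul_inv_rev, inv_inv]
    calc g⁻¹ * (y * c) = g⁻¹ * y * 1 * c := by group
      _ = g⁻¹ * y * (d * d) * c := by rw [h.cent_sq hd hdN]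
      _ = g⁻¹ * (y * d) * (d * c) := by group

theorem eq_of_smul_b {x y : G} (hx : x ∈ M) (hy : y ∈ M) (e : x • pt c = y • pt c) : x = y :=
  (h.point_unique hx hy hc hcN hc hcN (pt_eq.1 e)).1

omit hA in
theorem pair_stab {g : G} : (g • pt 1 = pt 1 ∧ g • pt c = pt c) ↔ g ∈ 𝒩 ⊓ 𝒞 := by
  have hc2 := h.cent_sq hc hcN
  rw [smul_pt, smul_pt, mul_one, pt_eq, pt_eq, mul_one, mul_inv_rev]
  constructor
  · rintro ⟨h1, h2⟩
    have hg : g ∈ 𝒩 := inv_mem_iff.1 h1
    refine ⟨hg, h.mem_cent_of_conj hc hcN hg ?_⟩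
    have := inv_mem h2
    rw [mul_inv_rev, mul_inv_rev, inv_inv, inv_inv, inv_eq_of_mul_eq_one_right hc2,
      ← mul_assoc] at this
    exact this
  · rintro ⟨hg, hgC⟩
    refine ⟨inv_mem hg, ?_⟩
    have h3 := h.cent_inverts hc hcN (inv_mem (show g ∈ 𝒩 ⊓ 𝒞 from ⟨hg, hgC⟩))
    rw [inv_eq_of_mul_eq_one_right hc2, inv_inv] at *
    rw [h3]
    exact hg

omit hA in
theorem c_smul : c • pt 1 = pt c ∧ c • pt c = pt 1 := by
  rw [smul_pt, smul_pt, mul_one, h.cent_sq hc hcN]
  exact ⟨rfl, rfl⟩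

omit hA in
theorem b_ne_a : pt c ≠ pt 1 := fun e => hcN (by
  have := inv_mem (pt_eq.1 e)
  rwa [mul_inv_rev, inv_inv, inv_one, one_mul] at this)

theorem fix_of_memN {y : G} (hy : y ∈ 𝒩) : y • pt 1 = pt 1 := by
  rw [smul_pt, pt_eq, mul_one, mul_one]; exact inv_mem hy

theorem commute_of_fix {k y : G} (hk : k ∈ 𝒩 ⊓ 𝒞) (hy : y ∈ M)
    (e : k • y • pt c = y • pt c) : k * y = y * k := by
  have h1 : (k * y * k⁻¹) • pt c = y • pt c := by
    rw [mul_smul, mul_smul, show k⁻¹ • pt c = pt c from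
      ((h.pair_stab hc hcN).2 (inv_mem hk)).2, e]
  exact mul_inv_eq_iff_eq_mul.1 (h.eq_of_smul_b hA hc hcN (conj_memM hk.1 hy) hy h1)

/-- The two point stabiliser acts fixed point freely on `M`. -/
theorem k_fpf {k x : G} (hk : k ∈ 𝒩 ⊓ 𝒞) (hx : x ∈ M) (hx1 : x ≠ 1) (hkx : k * x = x * k) :
    k = 1 := by
  have hc2 := h.cent_sq hc hcN
  obtain ⟨hca, hcb⟩ := h.c_smul hc hcN
  have hab := h.b_ne_a hc hcN
  have hkb : k • pt c = pt c := ((h.pair_stab hc hcN).2 hk).2
  have hka : k • pt 1 = pt 1 := ((h.pair_stab hc hcN).2 hk).1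
  have hck : c * k * c = k⁻¹ := h.cent_inverts hc hcN hk
  have hck' : c * k⁻¹ * c = k := h.cent_inverts hc hcN (inv_mem hk) |>.trans (inv_inv k)
  have conjc : ∀ y : G, k * y = y * k → k * (c * y * c) = c * y * c * k := by
    intro y hy
    have hy' : k⁻¹ * y = y * k⁻¹ := (Commute.inv_left hy).eq
    calc k * (c * y * c) = (c * k⁻¹ * c) * (c * y * c) := by rw [hck']
      _ = c * (k⁻¹ * ((c * c) * y)) * c := by group
      _ = c * (y * k⁻¹) * c := by rw [hc2, one_mul, hy']
      _ = c * y * (c * c) * k⁻¹ * c := by rw [hc2]; group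
      _ = c * y * c * (c * k⁻¹ * c) := by group
      _ = c * y * c * k := by rw [hck']
  set x' := c * x * c with hx'
  have hx'b : x' • pt c = pt c := by
    rw [hx', mul_smul, mul_smul, hcb, h.fix_of_memN hA hc hcN (memN_of_memM hx), hca]
  have hx'a : x' • pt 1 ≠ pt 1 := fun e => by
    refine hx1 (h.eq_of_smul_b hA hc hcN hx M.one_mem ?_)
    rw [one_smul]
    have := congrArg (fun p => c • p) e
    simp only [hx', mul_smul, hca] at this
    rw [← mul_smul c c, hc2, one_smul] at this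
    exact this
  obtain ⟨m, hm, hmb⟩ := h.exists_smul_b hA hc hcN hx'a
  have hkm : k * m = m * k := by
    refine h.commute_of_fix hA hc hcN hk hm ?_
    rw [← hmb, ← mul_smul, conjc x hkx, mul_smul, hka]
  have hm1 : m ≠ 1 := fun e => by
    rw [e, one_smul] at hmb
    exact hab (smul_left_cancel x' (hx'b.trans hmb.symm))
  set g := m⁻¹ * x' with hg
  have hga : g • pt 1 = pt c := by rw [hg, mul_smul, hmb, inv_smul_smul]
  have hgb : g • pt c ≠ pt 1 := fun e => by
    rw [hg, mul_smul, hx'b, inv_smul_eq_iff, h.fix_of_memN hA hc hcN (memN_of_memM hm)] at e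
    exact hab e
  have hgb' : g • pt c ≠ pt c := fun e => hab (smul_left_cancel g (hga.trans e.symm)).symm
  have hkg : k * g = g * k := by
    have h1 : k * m⁻¹ = m⁻¹ * k := (Commute.inv_right hkm).eq
    have h2 : k * x' = x' * k := conjc x hkx
    rw [hg, ← mul_assoc, h1, mul_assoc, h2, ← mul_assoc]
  have hca' : c • g • pt c ≠ pt 1 := fun e => hgb' (by
    have := congrArg (fun p => c • p) e
    simp only [← mul_smul c c, hc2, one_smul, hca] at this
    exact this)
  obtain ⟨r, hr, hrb⟩ := h.exists_smul_b hA hc hcN hca'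
  have hkr : k * r = r * k := by
    refine h.commute_of_fix hA hc hcN hk hr ?_
    rw [← hrb]
    have hkgc : k⁻¹ • g • pt c = g • pt c := by
      rw [← mul_smul, (Commute.inv_left hkg).eq, mul_smul,
        ((h.pair_stab hc hcN).2 (inv_mem hk)).2]
    calc k • c • g • pt c = (k * c) • g • pt c := (mul_smul _ _ _).symm
      _ = (c * k⁻¹) • g • pt c := by
          congr 1
          calc k * c = (c * k⁻¹ * c) * c := by rw [hck']
            _ = c * k⁻¹ := by rw [mul_assoc, hc2, mul_one]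
      _ = c • g • pt c := by rw [mul_smul, hkgc]
  set f := c * r⁻¹ * c * g with hf
  have hfa : f • pt 1 = pt c := by
    rw [hf, mul_smul, hga, mul_smul, mul_smul, hcb,
      h.fix_of_memN hA hc hcN (inv_mem (memN_of_memM hr)), hca]
  have hfb : f • pt c = pt 1 := by
    rw [hf, mul_smul, mul_smul, mul_smul, hrb, inv_smul_smul, hcb]
  have hfk : k * f = f * k := by
    rw [hf, ← mul_assoc, conjc r⁻¹ (Commute.inv_right hkr).eq, mul_assoc, hkg]
    group
  have hcf : c * f ∈ 𝒩 ⊓ 𝒞 := (h.pair_stab hc hcN).1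
    ⟨by rw [mul_smul, hfa, hcb], by rw [mul_smul, hfb, hca]⟩
  have hinv : f * k = k⁻¹ * f := by
    have hcomm : (c * f) * k = k * (c * f) := by
      have h1 := h.cent_inverts hc hcN hcf
      have h2 := h.cent_inverts hc hcN (mul_mem hcf hk)
      have h3 : c * (c * f * k) * c = (c * (c * f) * c) * (c * k * c) := by
        calc c * (c * f * k) * c = c * (c * f) * 1 * k * c := by group
          _ = c * (c * f) * (c * c) * k * c := by rw [hc2]
          _ = _ := by group
      rw [h3, h1, hck, ← mul_inv_rev, inv_inj] at h2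
      exact h2.symm
    calc f * k = c * ((c * f) * k) := by rw [mul_assoc c f k, ← mul_assoc c c, hc2, one_mul]
      _ = c * k * (c * f) := by rw [hcomm, mul_assoc]
      _ = (c * k * c) * f := by group
      _ = k⁻¹ * f := by rw [hck]
  have hkk : k * k = 1 := by
    have := hfk.trans hinv
    have h4 : k = k⁻¹ := mul_right_cancel this
    nth_rewrite 1 [h4]
    exact inv_mul_cancel k
  by_contra hk1
  exact hx1 (h.eq_one_of_commute hx hkk hk1 hkx)

theorem pair (p q p' q' : Ω) (hpq : p ≠ q) (hpq' : p' ≠ q') :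
    ∃ g : G, g • p = p' ∧ g • q = q' := by
  have key : ∀ p q : Ω, p ≠ q → ∃ g : G, g • pt 1 = p ∧ g • pt c = q := by
    intro p q hne
    obtain ⟨g₀, rfl⟩ : ∃ g₀ : G, g₀ • pt 1 = p := MulAction.exists_smul_eq G _ p
    obtain ⟨y, hy, e⟩ := h.exists_smul_b hA hc hcN (p := g₀⁻¹ • q)
      (fun e => hne (by rw [← e, smul_inv_smul]))
    exact ⟨g₀ * y, by rw [mul_smul, h.fix_of_memN hA hc hcN (memN_of_memM hy)],
      by rw [mul_smul, ← e, smul_inv_smul]⟩
  obtain ⟨g, h1, h2⟩ := key p q hpq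
  obtain ⟨g', h1', h2'⟩ := key p' q' hpq'
  exact ⟨g' * g⁻¹, by rw [mul_smul, ← h1, inv_smul_smul, h1'],
    by rw [mul_smul, ← h2, inv_smul_smul, h2']⟩

theorem three (g : G) (p q r : Ω) (hpq : p ≠ q) (hqr : q ≠ r) (hpr : p ≠ r) (hp : g • p = p)
    (hq : g • q = q) (hr : g • r = r) : g = 1 := by
  obtain ⟨e, h1, h2⟩ := h.pair hA hc hcN (pt 1) (pt c) p q (h.b_ne_a hc hcN).symm hpq
  have hr1 : e⁻¹ • r ≠ pt 1 := fun e' => hpr (by rw [← h1, ← e', smul_inv_smul])
  obtain ⟨y, hy, e'⟩ := h.exists_smul_b hA hc hcN hr1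
  have hy1 : y ≠ 1 := fun hy1 => hqr (by
    rw [hy1, one_smul] at e'; rw [← h2, ← e', smul_inv_smul])
  have hk : e⁻¹ * g * e ∈ 𝒩 ⊓ 𝒞 := (h.pair_stab hc hcN).1
    ⟨by rw [mul_smul, mul_smul, h1, hp, ← h1, inv_smul_smul],
     by rw [mul_smul, mul_smul, h2, hq, ← h2, inv_smul_smul]⟩
  have hcomm := h.commute_of_fix hA hc hcN hk hy (by
    rw [← e', mul_smul, mul_smul, smul_inv_smul, hr])
  have := h.k_fpf hA hc hcN hk hy hy1 hcomm
  calc g = e * (e⁻¹ * g * e) * e⁻¹ := by group
    _ = 1 := by rw [this]; group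

/-- The Zassenhaus setting. -/
def setting (hM : M ≠ ⊥) : CfsgLib.ZassAbelian.Setting G Ω where
  i := pt 1
  o := pt c
  io := (h.b_ne_a hc hcN).symm
  pair := h.pair hA hc hcN
  three := h.three hA hc hcN
  third := by
    obtain ⟨x, hx, hx1⟩ := M.bot_or_exists_ne_one.resolve_left hM
    refine ⟨x • pt c, fun e => h.b_ne_a hc hcN ?_, fun e => hx1 ?_⟩
    · exact smul_left_cancel x (e.trans (h.fix_of_memN hA hc hcN (memN_of_memM hx)).symm)
    · exact h.eq_of_smul_b hA hc hcN hx M.one_mem (by rw [e, one_smul])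
  F := M
  Fle := fun u hu => h.fix_of_memN hA hc hcN (memN_of_memM hu)
  Fnorm := fun g hg u hu => conj_memM (by
    rw [smul_pt, pt_eq, mul_one, mul_one] at hg
    exact inv_mem_iff.1 hg) hu
  Fcomm := fun u hu v hv => h.comm hu hv
  reg := fun p q hp hq => by
    obtain ⟨y, hy, rfl⟩ := h.exists_smul_b hA hc hcN hp
    obtain ⟨y', hy', rfl⟩ := h.exists_smul_b hA hc hcN hq
    exact ⟨y' * y⁻¹, mul_mem hy' (inv_mem hy), by rw [mul_smul, inv_smul_smul]⟩
  free := fun u hu p hp e => by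
    obtain ⟨y, hy, rfl⟩ := h.exists_smul_b hA hc hcN hp
    have := h.eq_of_smul_b hA hc hcN (mul_mem hu hy) hy (by rw [mul_smul]; exact e)
    exact mul_eq_right.1 this
end CaseA

end Data

end CfsgLib.TICount
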