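import Cfsg.Agent.TICount.CaseA
import Cfsg.Agent.ClassSizes.ConjRange
import Mathlib.Data.Set.Card

/-!
The case of a two point stabiliser of order two: counting gives `|M| = 2^a + 1` or `2^(a+1) + 1`
where `|C(z)| = 2^(a+1)`.
-/

set_option autoImplicit false
set_option linter.style.haveILetI false
set_option linter.unusedSectionVars false

namespace CfsgLib.TICount

variable {G : Type*} [Group G] [Finite G] {M : Subgroup G} {z : G}

local notation "𝒩" => Subgroup.normalizer (M : Set G)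
local notation "𝒞" => Subgroup.centralizer (Singleton.singleton z : Set G)

/-- Two involutions outside the normaliser in the centraliser of `z` with product outside. -/
structure DataB (M : Subgroup G) (z : G) : Prop extends Data M z where
  big : ∃ c ∈ Subgroup.centralizer (Singleton.singleton z : Set G),
    ∃ d ∈ Subgroup.centralizer (Singleton.singleton z : Set G),
      c ∉ Subgroup.normalizer (M : Set G) ∧ d ∉ Subgroup.normalizer (M : Set G) ∧
        c * d ∉ Subgroup.normalizer (M : Set G)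

namespace DataB

variable (h : DataB M z)

include h

theorem z_mem_C : z ∈ 𝒞 := Subgroup.mem_centralizer_singleton_iff.2 rfl

theorem conj_z_mem {y : G} (hy : y ∈ M) (hc : y * z * y⁻¹ ∈ 𝒞) : y = 1 := by
  have e : y * z * y⁻¹ = (y * y) * z := by
    rw [mul_assoc, h.z_mul (inv_mem hy), inv_inv, ← mul_assoc]
  rw [e] at hc
  have h2 : y * y ∈ 𝒞 := by
    have := mul_mem hc h.z_mem_C
    rwa [mul_assoc, h.z2, mul_one] at this
  exact h.eq_one_of_sq hy (h.eq_one_of_mem_of_comm (mul_mem hy hy) h2)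

/-- The two point stabiliser has order two. -/
theorem cent_inf_norm {k : G} (hk : k ∈ 𝒩) (hk' : k ∈ 𝒞) : k = 1 ∨ k = z := by
  obtain ⟨c, hc, d, hd, hcN, hdN, hcd⟩ := h.big
  have h1 := h.cent_inverts hc hcN (inv_mem (show k ∈ 𝒩 ⊓ 𝒞 from ⟨hk, hk'⟩))
  have h2 := h.cent_inverts hd hdN (show k ∈ 𝒩 ⊓ 𝒞 from ⟨hk, hk'⟩)
  have h3 := h.cent_inverts (mul_mem hc hd) hcd (show k ∈ 𝒩 ⊓ 𝒞 from ⟨hk, hk'⟩)
  rw [inv_inv] at h1
  have hcd2 := h.cent_sq (mul_mem hc hd) hcd
  have hdc : c * d = d * c := by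
    have := inv_eq_of_mul_eq_one_right hcd2
    rw [mul_inv_rev, inv_eq_of_mul_eq_one_right (h.cent_sq hc hcN),
      inv_eq_of_mul_eq_one_right (h.cent_sq hd hdN)] at this
    exact this.symm
  have hkk : k * k = 1 := by
    have h4 : c * d * k * (c * d) = k := by
      calc c * d * k * (c * d) = c * (d * k * d) * c := by rw [hdc]; group; rw [← hdc]
        _ = k := by rw [h2, h1]
    rw [h3] at h4
    nth_rewrite 1 [← h4]
    exact inv_mul_cancel k
  by_cases hk1 : k = 1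
  · exact Or.inl hk1
  obtain ⟨y, hy, rfl⟩ := h.invol_conj hk hkk hk1
  right
  rw [h.conj_z_mem hy hk', one_mul, inv_one, mul_one]

theorem cent_sq_all {c : G} (hc : c ∈ 𝒞) : c * c = 1 := by
  by_cases hcN : c ∈ 𝒩
  · rcases h.cent_inf_norm hcN hc with rfl | rfl
    · rw [one_mul]
    · exact h.z2
  · exact h.cent_sq hc hcN

theorem cent_comm {c d : G} (hc : c ∈ 𝒞) (hd : d ∈ 𝒞) : c * d = d * c := by
  have hcd := h.cent_sq_all (mul_mem hc hd)
  calc c * d = c * (c * d * (c * d)) * d := by rw [hcd, mul_one]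
    _ = (c * c) * d * c * (d * d) := by group
    _ = d * c := by rw [h.cent_sq_all hc, h.cent_sq_all hd, one_mul, mul_one]

/-- Involutions correspond to pairs of an element of `M` and an involution centralising `z`. -/
theorem conj_bij :
    Function.Injective (fun p : M × {v : G // v ∈ 𝒞 ∧ v ≠ 1} => (p.1 : G) * p.2 * (p.1 : G)⁻¹) ∧
    ∀ w : G, w * w = 1 → w ≠ 1 →
      ∃ p : M × {v : G // v ∈ 𝒞 ∧ v ≠ 1}, (p.1 : G) * p.2 * (p.1 : G)⁻¹ = w := by
  constructor
  · rintro ⟨⟨y, hy⟩, ⟨v, hv, hv1⟩⟩ ⟨⟨y', hy'⟩, ⟨v', hv', hv1'⟩⟩ e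
    simp only at e
    have hxM : y'⁻¹ * y ∈ M := mul_mem (inv_mem hy') hy
    set x := y'⁻¹ * y with hxdef
    have hx : x * v * x⁻¹ = v' := by
      calc x * v * x⁻¹ = y'⁻¹ * (y * v * y⁻¹) * y' := by rw [hxdef]; group
        _ = v' := by rw [e]; group
    have hx1 : x = 1 := by
      by_cases hvN : v ∈ 𝒩
      · rcases h.cent_inf_norm hvN hv with rfl | rfl
        · exact absurd rfl hv1
        · exact h.conj_z_mem hxM (hx ▸ hv')
      · have hv2 := h.cent_sq hv hvN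
        have hzx : x⁻¹ * z * x * v = v * (x⁻¹ * z * x) := by
          have hc : z * v' = v' * z := (Subgroup.mem_centralizer_singleton_iff.1 hv').symm
          rw [← hx] at hc
          calc x⁻¹ * z * x * v = x⁻¹ * (z * (x * v * x⁻¹)) * x := by group
            _ = x⁻¹ * (x * v * x⁻¹ * z) * x := by rw [hc]
            _ = v * (x⁻¹ * z * x) := by group
        have hn : x⁻¹ * z * x ∈ 𝒩 :=
          mul_mem (mul_mem (inv_mem (memN_of_memM hxM)) h.zN) (memN_of_memM hxM)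
        have hmem := h.mem_cent_of_conj hv hvN hn (by
          rw [← hzx, mul_assoc, hv2, mul_one]; exact hn)
        exact inv_eq_one.1 (h.conj_z_mem (inv_mem hxM) (by rwa [inv_inv]))
    have hyy : y' = y := inv_mul_eq_one.1 hx1
    subst hyy
    rw [hx1, one_mul, inv_one, mul_one] at hx
    subst hx
    rfl
  · intro w hw hw1
    by_cases hwN : w ∈ 𝒩
    · obtain ⟨y, hy, e⟩ := h.invol_conj hwN hw hw1
      exact ⟨(⟨y, hy⟩, ⟨z, h.z_mem_C, h.z1⟩), e.symm⟩
    · obtain ⟨y, hy, hc⟩ := h.exists_conj_cent hwN hw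
      exact ⟨(⟨y, hy⟩, ⟨_, hc, fun e => hw1 (by
        calc w = y * (y⁻¹ * w * y) * y⁻¹ := by group
          _ = 1 := by rw [e]; group)⟩), by simp only; group⟩

theorem sq_of_conj {v : G} (hv : IsConj z v) : v * v = 1 ∧ v ≠ 1 := by
  obtain ⟨g, rfl⟩ := isConj_iff.1 hv
  refine ⟨?_, fun e => h.z1 (conj_eq_one_iff.1 e)⟩
  calc g * z * g⁻¹ * (g * z * g⁻¹) = g * (z * z) * g⁻¹ := by group
    _ = 1 := by rw [h.z2]; group

theorem card_conj : Nat.card {v : G // IsConj z v} =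
    Nat.card M * Nat.card {v : G // v ∈ 𝒞 ∧ IsConj z v} := by
  rw [← Nat.card_prod]
  refine (Nat.card_eq_of_bijective
    (fun p : M × {v : G // v ∈ 𝒞 ∧ IsConj z v} =>
      (⟨(p.1 : G) * p.2 * (p.1 : G)⁻¹, p.2.2.2.trans (isConj_iff.2 ⟨_, rfl⟩)⟩ :
        {v : G // IsConj z v})) ⟨?_, ?_⟩).symm
  · rintro ⟨y, ⟨v, hv, hvz⟩⟩ ⟨y', ⟨v', hv', hvz'⟩⟩ e
    have := h.conj_bij.1 (a₁ := (y, ⟨v, hv, (h.sq_of_conj hvz).2⟩))
      (a₂ := (y', ⟨v', hv', (h.sq_of_conj hvz').2⟩)) (congrArg Subtype.val e)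
    simp only [Prod.mk.injEq, Subtype.mk.injEq] at this
    obtain ⟨rfl, rfl⟩ := this
    rfl
  · rintro ⟨w, hw⟩
    obtain ⟨⟨y, v, hv, hv1⟩, e⟩ := h.conj_bij.2 w (h.sq_of_conj hw).1 (h.sq_of_conj hw).2
    exact ⟨(y, ⟨v, hv, hw.trans (isConj_iff.2 ⟨(y : G)⁻¹, by rw [← e]; group⟩)⟩),
      Subtype.ext e⟩

theorem card_involutions : Nat.card {v : G // v * v = 1 ∧ v ≠ 1} =
    Nat.card M * (Nat.card 𝒞 - 1) := by
  classical
  haveI := Fintype.ofFinite G
  have e1 : Nat.card {v : G // v ∈ 𝒞 ∧ v ≠ 1} = Nat.card 𝒞 - 1 := by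
    rw [Nat.card_congr (Equiv.subtypeSubtypeEquivSubtypeInter (· ∈ 𝒞) (· ≠ (1 : G))).symm,
      Nat.card_eq_fintype_card, Fintype.card_subtype_compl, Nat.card_eq_fintype_card]
    congr 1
    rw [Fintype.card_eq_one_iff]
    exact ⟨⟨⟨1, one_mem _⟩, rfl⟩, fun x => Subtype.ext (Subtype.ext x.2)⟩
  rw [← e1, ← Nat.card_prod]
  refine (Nat.card_eq_of_bijective
    (fun p : M × {v : G // v ∈ 𝒞 ∧ v ≠ 1} => (⟨(p.1 : G) * p.2 * (p.1 : G)⁻¹, by
      refine ⟨?_, fun e => p.2.2.2 (conj_eq_one_iff.1 e)⟩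
      calc (p.1 : G) * p.2 * (p.1 : G)⁻¹ * ((p.1 : G) * p.2 * (p.1 : G)⁻¹)
          = (p.1 : G) * ((p.2 : G) * p.2) * (p.1 : G)⁻¹ := by group
        _ = 1 := by rw [h.cent_sq_all p.2.2.1]; group⟩ : {v : G // v * v = 1 ∧ v ≠ 1}))
    ⟨fun p q e => h.conj_bij.1 (congrArg Subtype.val e), fun w => ?_⟩).symm
  obtain ⟨p, e⟩ := h.conj_bij.2 w w.2.1 w.2.2
  exact ⟨p, Subtype.ext e⟩

theorem card_norm : Nat.card 𝒩 = 2 * Nat.card M := by
  rw [mul_comm, show (2 : ℕ) = Nat.card Bool by simp, ← Nat.card_prod]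
  refine (Nat.card_eq_of_bijective (fun p : M × Bool =>
    (⟨(p.1 : G) * (if p.2 then z else 1), mul_mem (memN_of_memM p.1.2)
      (by split_ifs; exacts [h.zN, one_mem _])⟩ : 𝒩)) ⟨?_, ?_⟩).symm
  · rintro ⟨x, a⟩ ⟨y, b⟩ e
    have e : (x : G) * (if a then z else 1) = (y : G) * (if b then z else 1) :=
      congrArg Subtype.val e
    have hzM : z ∉ M := fun hz => h.z1 (h.eq_one_of_sq hz h.z2)
    cases a <;> cases b <;> simp at e
    · simp [e]
    · exact absurd (by rw [← mul_left_cancel_iff (a := (y : G))]; exact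
        (show (y : G) * z = (y : G) * ((y : G)⁻¹ * x) by rw [mul_inv_cancel_left, e]))
        (fun e1 : z = (y : G)⁻¹ * x => hzM (e1 ▸ mul_mem (inv_mem y.2) x.2))
    · exact absurd (by rw [← mul_left_cancel_iff (a := (x : G))]; exact
        (show (x : G) * z = (x : G) * ((x : G)⁻¹ * y) by rw [mul_inv_cancel_left, e]))
        (fun e1 : z = (x : G)⁻¹ * y => hzM (e1 ▸ mul_mem (inv_mem x.2) y.2))
    · simp [e]
  · rintro ⟨n, hn⟩
    obtain ⟨x, hx, k, hk, rfl⟩ := h.exists_mul hn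
    rcases h.cent_inf_norm hk.1 hk.2 with rfl | rfl
    · exact ⟨(⟨x, hx⟩, false), Subtype.ext (by simp)⟩
    · exact ⟨(⟨x, hx⟩, true), Subtype.ext (by simp)⟩

theorem card_points : 2 * (Subgroup.index 𝒩 - 1) = Nat.card M * (Nat.card 𝒞 - 2) := by
  classical
  haveI := Fintype.ofFinite G
  haveI := Fintype.ofFinite (G ⧸ 𝒩)
  have hout : Nat.card {c : G // c ∈ 𝒞 ∧ c ∉ 𝒩} = Nat.card 𝒞 - 2 := by
    rw [Nat.card_congr (Equiv.subtypeSubtypeEquivSubtypeInter (· ∈ 𝒞) (· ∉ 𝒩)).symm,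
      Nat.card_eq_fintype_card, Fintype.card_subtype_compl, Nat.card_eq_fintype_card]
    congr 1
    rw [Fintype.card_eq_nat_card]
    rw [show (2 : ℕ) = Nat.card Bool by simp]
    refine (Nat.card_eq_of_bijective (fun b : Bool =>
      (⟨⟨if b then z else 1, by split_ifs; exacts [h.z_mem_C, one_mem _]⟩,
        by show (if b then z else 1) ∈ 𝒩; split_ifs; exacts [h.zN, one_mem _]⟩ :
        {c : 𝒞 // (c : G) ∈ 𝒩})) ⟨?_, ?_⟩).symm
    · intro a b e
      have e1 : (if a then z else 1) = (if b then z else 1) :=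
        congrArg (fun c : {c : 𝒞 // (c : G) ∈ 𝒩} => ((c : 𝒞) : G)) e
      cases a <;> cases b <;> simp at e1 ⊢
      · exact h.z1 e1.symm
      · exact h.z1 e1
    · rintro ⟨⟨c, hc⟩, hcN⟩
      rcases h.cent_inf_norm hcN hc with e | e
      · exact ⟨false, Subtype.ext (Subtype.ext (by simpa using e.symm))⟩
      · exact ⟨true, Subtype.ext (Subtype.ext (by simpa using e.symm))⟩
  rw [← hout, ← Nat.card_prod, Subgroup.index_eq_card]
  have hne : Nat.card {p : G ⧸ 𝒩 // p ≠ (QuotientGroup.mk 1 : G ⧸ 𝒩)} =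
      Nat.card (G ⧸ 𝒩) - 1 := by
    rw [Nat.card_eq_fintype_card, Fintype.card_subtype_compl, Fintype.card_subtype_eq,
      Nat.card_eq_fintype_card]
  rw [← hne, mul_comm, show (2 : ℕ) = Nat.card Bool by simp, ← Nat.card_prod]
  have hrep : ∀ p : {p : G ⧸ 𝒩 // p ≠ (QuotientGroup.mk 1 : G ⧸ 𝒩)},
      ∃ yc : M × {c : G // c ∈ 𝒞 ∧ c ∉ 𝒩},
        (QuotientGroup.mk ((yc.1 : G) * yc.2) : G ⧸ 𝒩) = p := by
    rintro ⟨p, hp⟩
    induction p using QuotientGroup.induction_on with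
    | H g =>
      have hg : g ∉ 𝒩 := fun hmem => hp (QuotientGroup.eq.2
        (by rw [mul_one]; exact inv_mem hmem))
      obtain ⟨y, hy, c, hc, hcN, e⟩ := h.exists_point hg
      exact ⟨(⟨y, hy⟩, ⟨c, hc, hcN⟩), QuotientGroup.eq.2 e⟩
  choose rep hrep using hrep
  refine Nat.card_eq_of_bijective
    (fun q : {p : G ⧸ 𝒩 // p ≠ (QuotientGroup.mk 1 : G ⧸ 𝒩)} × Bool =>
      ((rep q.1).1, (⟨((rep q.1).2 : G) * (if q.2 then z else 1),
        mul_mem (rep q.1).2.2.1 (by split_ifs; exacts [h.z_mem_C, one_mem _]),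
        fun hmem => (rep q.1).2.2.2 (by
          have h1 : (if q.2 then z else 1) ∈ 𝒩 := by split_ifs; exacts [h.zN, one_mem _]
          have := mul_mem hmem (inv_mem h1)
          rwa [mul_inv_cancel_right] at this)⟩ : {c : G // c ∈ 𝒞 ∧ c ∉ 𝒩}))) ⟨?_, ?_⟩
  · rintro ⟨p, a⟩ ⟨p', b⟩ e
    simp only [Prod.mk.injEq] at e
    obtain ⟨e1, e2⟩ := e
    have e3 : ((rep p).2 : G) * (if a then z else 1) = (rep p').2 * (if b then z else 1) :=
      congrArg Subtype.val e2
    have hpp : p = p' := by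
      refine Subtype.ext ?_
      rw [← hrep p, ← hrep p', QuotientGroup.eq, e1]
      have h1 : (if a then z else 1) * (if b then z else 1)⁻¹ ∈ 𝒩 := by
        refine mul_mem ?_ (inv_mem ?_) <;> split_ifs <;> first | exact h.zN | exact one_mem _
      convert h1 using 1
      calc ((rep p').1 * (rep p).2 : G)⁻¹ * ((rep p').1 * (rep p').2)
          = ((rep p).2 : G)⁻¹ * ((rep p').2 * (if b then z else 1)) * (if b then z else 1)⁻¹ := by
            group
        _ = (if a then z else 1) * (if b then z else 1)⁻¹ := by rw [← e3]; group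
    subst hpp
    have e4 := mul_left_cancel e3
    cases a <;> cases b <;> simp at e4 ⊢
    · exact h.z1 e4.symm
    · exact h.z1 e4
  · rintro ⟨⟨y, hy⟩, ⟨c, hc, hcN⟩⟩
    have hp : (QuotientGroup.mk (y * c) : G ⧸ 𝒩) ≠ QuotientGroup.mk 1 := by
      intro e
      rw [QuotientGroup.eq, mul_one] at e
      have := mul_mem (inv_mem (memN_of_memM hy)) (inv_mem e)
      rw [inv_inv, inv_mul_cancel_left] at this
      exact hcN this
    set p : {p : G ⧸ 𝒩 // p ≠ (QuotientGroup.mk 1 : G ⧸ 𝒩)} := ⟨_, hp⟩ with hpdef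
    have hr := QuotientGroup.eq.1 (hrep p)
    obtain ⟨e1, e2⟩ := h.point_unique (rep p).1.2 hy (rep p).2.2.1 (rep p).2.2.2 hc hcN hr
    have hr2 := h.cent_sq (rep p).2.2.1 (rep p).2.2.2
    rcases h.cent_inf_norm e2 (mul_mem (rep p).2.2.1 hc) with e3 | e3
    · refine ⟨(p, false), Prod.ext (Subtype.ext e1) (Subtype.ext ?_)⟩
      show ((rep p).2 : G) * 1 = c
      rw [mul_one, ← inv_eq_of_mul_eq_one_right hr2]
      exact inv_eq_of_mul_eq_one_right e3
    · refine ⟨(p, true), Prod.ext (Subtype.ext e1) (Subtype.ext ?_)⟩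
      show ((rep p).2 : G) * z = c
      calc ((rep p).2 : G) * z = ((rep p).2 : G) * (((rep p).2 : G) * c) := congrArg _ e3.symm
        _ = c := by rw [← mul_assoc, hr2, one_mul]

theorem card_conj_mul : Nat.card {v : G // IsConj z v} * Nat.card 𝒞 = Nat.card G := by
  have e : Nat.card {v : G // IsConj z v} = Subgroup.index 𝒞 := by
    rw [← CfsgLib.ClassSizes.ncard_conjRange z, ← Nat.card_coe_set_eq]
    exact Nat.card_congr (Equiv.subtypeEquivRight fun v => isConj_iff)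
  rw [e, mul_comm, Subgroup.card_mul_index]

/-- The arithmetic of case B. -/
theorem parameters : ∃ a : ℕ, 2 ≤ a ∧ Nat.card 𝒞 = 2 ^ (a + 1) ∧
    ((Nat.card M = 2 ^ a + 1 ∧ Nat.card {v : G // v ∈ 𝒞 ∧ IsConj z v} = 2 ^ a) ∨
     (Nat.card M = 2 ^ (a + 1) + 1 ∧
        Nat.card {v : G // v ∈ 𝒞 ∧ IsConj z v} = Nat.card 𝒞 - 1)) := by
  classical
  haveI := Fintype.ofFinite G
  haveI := Fact.mk Nat.prime_two
  have hp : IsPGroup 2 𝒞 := fun c =>
    ⟨1, Subtype.ext (by simp [pow_two, h.cent_sq_all c.2])⟩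
  obtain ⟨e, he⟩ := IsPGroup.iff_card.1 hp
  obtain ⟨c, hc, d, hd, hcN, hdN, hcd⟩ := h.big
  have h5 : 5 ≤ Nat.card 𝒞 := by
    let l : List 𝒞 := [1, ⟨z, h.z_mem_C⟩, ⟨c, hc⟩, ⟨d, hd⟩, ⟨c * d, mul_mem hc hd⟩]
    have hnd : l.Nodup := by
      have h1 : c ≠ d := fun e' => hcd (by rw [e', h.cent_sq hd hdN]; exact one_mem _)
      have h2 : c ≠ c * d := fun e' => hdN (by
        have := mul_eq_left.1 e'.symm; rw [this]; exact one_mem _)
      have h3 : d ≠ c * d := fun e' => hcN (by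
        have := mul_eq_right.1 e'.symm; rw [this]; exact one_mem _)
      simp only [l, List.nodup_cons, List.mem_cons, List.not_mem_nil, or_false, not_or,
        Subtype.ext_iff, Subgroup.coe_one, List.nodup_nil, and_true, not_false_iff]
      exact ⟨⟨h.z1.symm, fun e' => hcN (e' ▸ one_mem _), fun e' => hdN (e' ▸ one_mem _),
          fun e' => hcd (e' ▸ one_mem _)⟩,
        ⟨fun e' => hcN (e' ▸ h.zN), fun e' => hdN (e' ▸ h.zN), fun e' => hcd (e' ▸ h.zN)⟩,
        ⟨h1, h2⟩, h3⟩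
    have := hnd.length_le_card
    rw [← Nat.card_eq_fintype_card] at this
    simpa [l] using this
  have he3 : 3 ≤ e := by
    by_contra hlt
    have := Nat.pow_le_pow_right (show 0 < 2 by norm_num) (show e ≤ 2 by omega)
    omega
  obtain ⟨a, rfl⟩ : ∃ a, e = a + 1 := ⟨e - 1, by omega⟩
  refine ⟨a, by omega, he, ?_⟩
  have hG := Subgroup.card_mul_index 𝒩
  rw [h.card_norm, ← h.card_conj_mul, h.card_conj, he] at hG
  have hpts := h.card_points
  rw [he] at hpts
  have hs : Nat.card {v : G // v ∈ 𝒞 ∧ IsConj z v} ≤ Nat.card 𝒞 - 1 := by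
    have := Nat.card_le_card_of_injective
      (fun v : {v : G // v ∈ 𝒞 ∧ IsConj z v} => (⟨⟨v, v.2.1⟩, fun e' =>
        (h.sq_of_conj v.2.2).2 (congrArg Subtype.val e')⟩ : {x : 𝒞 // x ≠ 1}))
      (fun v w e' => Subtype.ext (congrArg (fun x : {x : 𝒞 // x ≠ 1} => ((x : 𝒞) : G)) e'))
    rwa [Nat.card_eq_fintype_card (α := {x : 𝒞 // x ≠ 1}), Fintype.card_subtype_compl,
      Fintype.card_subtype_eq, ← Nat.card_eq_fintype_card] at this
  have hM3 : 2 ≤ Nat.card M := by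
    obtain ⟨x, hx, hx1⟩ := M.bot_or_exists_ne_one.resolve_left h.ne_bot
    haveI : Nontrivial M := ⟨⟨⟨x, hx⟩, 1, fun e' => hx1 (congrArg Subtype.val e')⟩⟩
    exact Finite.one_lt_card
  have hn1 : 1 ≤ Subgroup.index 𝒩 := Nat.one_le_iff_ne_zero.2 Subgroup.index_ne_zero_of_finite
  have hP : 4 ≤ 2 ^ a := le_trans (by norm_num) (Nat.pow_le_pow_right (show 0 < 2 by norm_num)
    (show 2 ≤ a by omega))
  rw [pow_succ] at he hG hpts ⊢
  rw [he] at hs ⊢
  generalize Nat.card M = m at *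
  generalize Nat.card {v : G // v ∈ 𝒞 ∧ IsConj z v} = s at *
  generalize Subgroup.index 𝒩 = n at *
  generalize 2 ^ a = P at *
  have hns : n = P * s := by
    have : (2 * m) * n = (2 * m) * (P * s) := by rw [hG]; ring
    exact Nat.eq_of_mul_eq_mul_left (by omega) this
  subst hns
  have h1 : P * s + m = m * P + 1 := by
    have h2 : m * (P * 2 - 2) = 2 * (m * P) - 2 * m := by
      rw [Nat.mul_sub]; ring_nf
    rw [h2] at hpts
    have : m ≤ m * P := Nat.le_mul_of_pos_right _ (by omega)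
    omega
  have hsm : s < m := by
    by_contra hge
    push Not at hge
    have := Nat.mul_le_mul_left P hge
    rw [Nat.mul_comm m P] at h1
    omega
  obtain ⟨k, rfl⟩ : ∃ k, m = s + k := ⟨m - s, by omega⟩
  have hk : s + k = k * P + 1 := by
    rw [Nat.add_mul, Nat.mul_comm s P] at h1
    omega
  rcases k with _ | _ | _ | k
  · omega
  · left; omega
  · right; omega
  · exfalso
    have : (k + 3) * P = k * P + 3 * P := by ring
    have := Nat.le_mul_of_pos_right k (show 0 < P by omega)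
    rw [show k + 1 + 1 + 1 = k + 3 from rfl] at hk
    omega

end DataB

end CfsgLib.TICount
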