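import Cfsg.Agent.TICount.Basic
import Mathlib.GroupTheory.GroupAction.Quotient

/-!
More involutions than cosets forces an involution in every coset outside the normaliser; the two
point stabiliser is then inverted by every exchanging involution.
-/

set_option autoImplicit false
set_option linter.style.haveILetI false

namespace CfsgLib.TICount

variable {G : Type*} [Group G] {M : Subgroup G} {z : G}

local notation "𝒩" => Subgroup.normalizer (M : Set G)
local notation "𝒞" => Subgroup.centralizer (Singleton.singleton z : Set G)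

/-- The hypotheses together with: every coset outside the normaliser contains an involution. -/
structure Data (M : Subgroup G) (z : G) : Prop extends Hyp M z where
  full : ∀ g : G, g ∉ Subgroup.normalizer (M : Set G) → ∃ x ∈ M, g * x * (g * x) = 1
  exists_out : ∃ g : G, g ∉ Subgroup.normalizer (M : Set G)

/-- More involutions than cosets: every coset outside the normaliser contains an involution. -/
theorem Hyp.full_of_card [Finite G] (h : Hyp M z)
    (hI : M.index < Nat.card {g : G // orderOf g = 2}) {g : G} (hg : g ∉ 𝒩) :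
    ∃ x ∈ M, g * x * (g * x) = 1 := by
  classical
  by_contra hno
  push Not at hno
  let f : {w : G // orderOf w = 2} → G ⧸ M := fun w =>
    if (w : G) ∈ 𝒩 then QuotientGroup.mk ((w : G) * z * g) else QuotientGroup.mk (w : G)
  have hsq : ∀ w : {w : G // orderOf w = 2}, (w : G) * w = 1 ∧ (w : G) ≠ 1 := fun w => by
    refine ⟨?_, fun e => by have := w.2; rw [e, orderOf_one] at this; omega⟩
    rw [← pow_two]
    exact orderOf_dvd_iff_pow_eq_one.1 (dvd_of_eq w.2)
  have hmem : ∀ w : {w : G // orderOf w = 2}, (w : G) ∈ 𝒩 → (w : G) * z ∈ M := by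
    intro w hw
    obtain ⟨y, hy, e⟩ := h.invol_conj hw (hsq w).1 (hsq w).2
    rw [e, show y * z * y⁻¹ * z = y * (z * y⁻¹ * z) by group, h.zxz (inv_mem hy), inv_inv]
    exact mul_mem hy hy
  have hout : ∀ u : {w : G // orderOf w = 2}, (u : G) ∉ 𝒩 →
      ∀ w : {w : G // orderOf w = 2}, (w : G) ∈ 𝒩 →
        (QuotientGroup.mk ((w : G) * z * g) : G ⧸ M) ≠ QuotientGroup.mk (u : G) := by
    intro u _ w hw e
    rw [QuotientGroup.eq] at e
    -- a conjugate of `u` lies in the coset of `g`
    have hx := hmem w hw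
    set x := (w : G) * z with hxdef
    have hm : (x * g)⁻¹ * u * x ∈ M := mul_mem e hx
    refine hno _ hm ?_
    calc g * ((x * g)⁻¹ * u * x) * (g * ((x * g)⁻¹ * u * x))
        = x⁻¹ * ((u : G) * u) * x := by group
      _ = 1 := by rw [(hsq u).1]; group
  have hf : Function.Injective f := by
    intro u v e
    by_cases hu : (u : G) ∈ 𝒩 <;> by_cases hv : (v : G) ∈ 𝒩 <;>
      simp only [f, hu, hv, if_true, if_false] at e
    · rw [QuotientGroup.eq] at e
      have hxy : ((u : G) * z)⁻¹ * ((v : G) * z) ∈ M := mul_mem (inv_mem (hmem u hu)) (hmem v hv)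
      have h2 : g⁻¹ * (((u : G) * z)⁻¹ * ((v : G) * z)) * g ∈ M := by
        convert e using 1; group
      by_contra hne
      have h1 : ((u : G) * z)⁻¹ * ((v : G) * z) ≠ 1 := fun e1 => hne (Subtype.ext
        (mul_right_cancel (inv_mul_eq_one.1 e1)))
      refine hg ?_
      have := h.ti g⁻¹ _ hxy h1 (by rwa [inv_inv])
      simpa using inv_mem this
    · exact absurd e (hout v hv u hu)
    · exact absurd e.symm (hout u hu v hv)
    · rw [QuotientGroup.eq] at e
      by_contra hne
      have huu : ((u : G))⁻¹ = u := inv_eq_of_mul_eq_one_right (hsq u).1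
      have hvv : ((v : G))⁻¹ = v := inv_eq_of_mul_eq_one_right (hsq v).1
      have h1 : (u : G)⁻¹ * v ≠ 1 := fun e1 => hne (Subtype.ext (inv_mul_eq_one.1 e1))
      refine hu (h.ti (u : G) _ e h1 ?_)
      have e2 := inv_mem e
      have : (u : G) * ((u : G)⁻¹ * v) * (u : G)⁻¹ = ((u : G)⁻¹ * v)⁻¹ := by
        rw [mul_inv_rev, inv_inv, hvv, mul_inv_cancel_left, huu]
      rwa [this]
  have := Nat.card_le_card_of_injective f hf
  rw [Subgroup.index] at hI
  omega

namespace Data

variable (h : Data M z)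

include h

theorem exists_invol_out : ∃ u : G, u ∉ 𝒩 ∧ u * u = 1 := by
  obtain ⟨g, hg⟩ := h.exists_out
  obtain ⟨x, hx, e⟩ := h.full g hg
  refine ⟨g * x, fun hmem => hg ?_, e⟩
  have := mul_mem hmem (inv_mem (memN_of_memM hx))
  rwa [mul_inv_cancel_right] at this

variable [Finite G] {u : G} (hu : u ∉ Subgroup.normalizer (M : Set G)) (hu2 : u * u = 1)

include hu hu2

/-- Every coset of `M` in the normaliser has an element inverted by `u`. -/
theorem exists_inverted {n : G} (hn : n ∈ 𝒩) : ∃ x ∈ M, u * (n * x) * u = (n * x)⁻¹ := by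
  obtain ⟨x, hx, e⟩ := h.full (u * n) (fun hmem => hu (by
    have := mul_mem hmem (inv_mem hn)
    rwa [mul_inv_cancel_right] at this))
  refine ⟨x, hx, eq_inv_of_mul_eq_one_left ?_⟩
  calc u * (n * x) * u * (n * x) = u * n * x * (u * n * x) := by group
    _ = 1 := e

theorem eq_one_of_conj_mem {a : G} (ha : a ∈ M) (hua : u * a * u ∈ 𝒩) : a = 1 := by
  have huinv : u⁻¹ = u := inv_eq_of_mul_eq_one_right hu2
  obtain ⟨x, hx, hinv⟩ := h.exists_inverted hu hu2 h.zN
  set w := z * x with hw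
  have hwN : w ∈ 𝒩 := mul_mem h.zN (memN_of_memM hx)
  have hw2 : w * w = 1 := by
    calc w * w = z * x * z * x := by rw [hw]; group
      _ = 1 := by rw [h.zxz hx, inv_mul_cancel]
  have hw1 : w ≠ 1 := fun e => by
    have hzM : z ∈ M := by rw [eq_inv_of_mul_eq_one_left e]; exact inv_mem hx
    exact h.z1 (h.eq_one_of_sq hzM h.z2)
  have hwinv : w⁻¹ = w := inv_eq_of_mul_eq_one_right hw2
  rw [hwinv] at hinv
  have hwu : w * u = u * w := by
    calc w * u = (u * u) * w * u := by rw [hu2, one_mul]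
      _ = u * (u * w * u) := by group
      _ = u * w := by rw [hinv]
  set b := u * a * u with hb
  have hwb : w * b * w = b⁻¹ := by
    calc w * b * w = (w * u) * a * (u * w) := by rw [hb]; group
      _ = (u * w) * a * (w * u) := by rw [hwu]
      _ = u * (w * a * w) * u := by group
      _ = u * a⁻¹ * u := by rw [h.inverts hwN hw2 hw1 ha]
      _ = b⁻¹ := by rw [hb, mul_inv_rev, mul_inv_rev, huinv, mul_assoc]
  have hmod : w * b * w * b⁻¹ ∈ M := by
    have h1 : w * b * w * b⁻¹
        = (z * x * z) * (z * b * z * b⁻¹) * (b * (z * z) * (z * (z * x)) * b⁻¹) := by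
      rw [h.z2, show z * (z * x) = (z * z) * x by group, h.z2, hw]
      calc z * x * b * (z * x) * b⁻¹
          = z * x * (z * z) * b * (z * x) * b⁻¹ := by rw [h.z2, mul_one]
        _ = (z * x * z) * (z * b * z * b⁻¹) * (b * 1 * (1 * x) * b⁻¹) := by group
    rw [h1, h.zxz hx, h.z2, show z * (z * x) = (z * z) * x by group, h.z2, one_mul, mul_one]
    exact mul_mem (mul_mem (inv_mem hx) (h.z_central_mod hua)) (conj_memM hua hx)
  rw [hwb] at hmod
  have hbb : b * b ∈ M := by
    have := inv_mem hmod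
    rwa [mul_inv_rev, inv_inv] at this
  have hbb' : u * (a * a) * u⁻¹ = b * b := by
    rw [huinv, hb]
    calc u * (a * a) * u = u * a * 1 * a * u := by group
      _ = u * a * (u * u) * a * u := by rw [hu2]
      _ = u * a * u * (u * a * u) := by group
  exact h.eq_one_of_sq ha (by_contra fun hne => hu (h.ti u _ (mul_mem ha ha) hne
    (by rw [hbb']; exact hbb)))

/-- `u` inverts the intersection of the normaliser with its image. -/
theorem inverted {n : G} (hn : n ∈ 𝒩) (hun : u * n * u ∈ 𝒩) : u * n * u = n⁻¹ := by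
  obtain ⟨x, hx, e⟩ := h.exists_inverted hu hu2 hn
  have hx' : u * x * u ∈ 𝒩 := by
    have h1 : u * x * u = (u * n * u)⁻¹ * (u * (n * x) * u) := by
      rw [mul_inv_rev, mul_inv_rev, inv_eq_of_mul_eq_one_right hu2]
      calc u * x * u = u * n⁻¹ * 1 * (n * x) * u := by group
        _ = u * n⁻¹ * (u * u) * (n * x) * u := by rw [hu2]
        _ = _ := by group
    rw [h1, e]
    exact mul_mem (inv_mem hun) (inv_mem (mul_mem hn (memN_of_memM hx)))
  rw [h.eq_one_of_conj_mem hu hu2 hx hx', mul_one] at e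
  exact e

/-- `u` is conjugate under `M` into the centraliser of `z`. -/
theorem exists_conj_cent : ∃ y ∈ M, y⁻¹ * u * y ∈ 𝒞 := by
  obtain ⟨x, hx, hinv⟩ := h.exists_inverted hu hu2 h.zN
  have hwN : z * x ∈ 𝒩 := mul_mem h.zN (memN_of_memM hx)
  have hw2 : z * x * (z * x) = 1 := by
    calc z * x * (z * x) = z * x * z * x := by group
      _ = 1 := by rw [h.zxz hx, inv_mul_cancel]
  have hw1 : z * x ≠ 1 := fun e => by
    have hzM : z ∈ M := by rw [eq_inv_of_mul_eq_one_left e]; exact inv_mem hx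
    exact h.z1 (h.eq_one_of_sq hzM h.z2)
  rw [inv_eq_of_mul_eq_one_right hw2] at hinv
  obtain ⟨y, hy, e⟩ := h.invol_conj hwN hw2 hw1
  refine ⟨y, hy, Subgroup.mem_centralizer_singleton_iff.2 ?_⟩
  rw [e] at hinv
  have hcomm : u * (y * z * y⁻¹) = y * z * y⁻¹ * u := by
    calc u * (y * z * y⁻¹) = u * (y * z * y⁻¹) * (u * u) := by rw [hu2, mul_one]
      _ = (u * (y * z * y⁻¹) * u) * u := by group
      _ = y * z * y⁻¹ * u := by rw [hinv]
  calc y⁻¹ * u * y * z = y⁻¹ * (u * (y * z * y⁻¹)) * y := by group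
    _ = y⁻¹ * (y * z * y⁻¹ * u) * y := by rw [hcomm]
    _ = z * (y⁻¹ * u * y) := by group

omit hu hu2

/-- Outside the normaliser the centraliser of `z` consists of involutions. -/
theorem cent_sq {c : G} (hc : c ∈ 𝒞) (hcN : c ∉ 𝒩) : c * c = 1 := by
  obtain ⟨x, hx, e⟩ := h.full c hcN
  have hcz : c * z = z * c := Subgroup.mem_centralizer_singleton_iff.1 hc
  have hzc : z * c * z = c := by rw [← hcz, mul_assoc, h.z2, mul_one]
  set v := c * x with hv
  have hvv : v⁻¹ = v := inv_eq_of_mul_eq_one_right e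
  have e' : c * x⁻¹ * (c * x⁻¹) = 1 := by
    have hh : z * v * z = c * x⁻¹ := by
      rw [hv, ← h.zxz hx]
      calc z * (c * x) * z = z * c * 1 * x * z := by group
        _ = (z * c * z) * (z * x * z) := by rw [← h.z2]; group
        _ = c * (z * x * z) := by rw [hzc]
    calc c * x⁻¹ * (c * x⁻¹) = z * v * (z * z) * v * z := by rw [← hh]; group
      _ = z * (v * v) * z := by rw [h.z2]; group
      _ = 1 := by rw [e, mul_one, h.z2]
  have hM : x⁻¹ * x⁻¹ ∈ M := mul_mem (inv_mem hx) (inv_mem hx)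
  have hconj : v * (x⁻¹ * x⁻¹) * v⁻¹ = x * x := by
    have h1 : c * x⁻¹ = v * (x⁻¹ * x⁻¹) := by rw [hv]; group
    rw [h1] at e'
    calc v * (x⁻¹ * x⁻¹) * v⁻¹ = (v * (x⁻¹ * x⁻¹) * (v * (x⁻¹ * x⁻¹))) * (x * x) := by
          rw [hvv]; group
      _ = x * x := by rw [e', one_mul]
  have hx1 : x⁻¹ * x⁻¹ = 1 := by
    by_contra hne
    refine hcN ?_
    have hvN := h.ti v _ hM hne (by rw [hconj]; exact mul_mem hx hx)
    have := mul_mem hvN (inv_mem (memN_of_memM hx))
    rwa [hv, mul_inv_cancel_right] at this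
  have hx0 : x = 1 := inv_eq_one.1 (h.eq_one_of_sq (inv_mem hx) hx1)
  rwa [hv, hx0, mul_one] at e

theorem cent_inverts {c k : G} (hc : c ∈ 𝒞) (hcN : c ∉ 𝒩) (hk : k ∈ 𝒩 ⊓ 𝒞) :
    c * k * c = k⁻¹ := by
  have h1 := h.cent_sq (mul_mem hc hk.2) (fun hmem => hcN (by
    have := mul_mem hmem (inv_mem hk.1)
    rwa [mul_inv_cancel_right] at this))
  refine eq_inv_of_mul_eq_one_left ?_
  calc c * k * c * k = c * k * (c * k) := by group
    _ = 1 := h1

/-- An element of the normaliser whose conjugate under `c` is in the normaliser centralises `z`. -/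
theorem mem_cent_of_conj {c n : G} (hc : c ∈ 𝒞) (hcN : c ∉ 𝒩) (hn : n ∈ 𝒩)
    (hcn : c * n * c ∈ 𝒩) : n ∈ 𝒞 := by
  have hc2 := h.cent_sq hc hcN
  have h1 := h.inverted hcN hc2 hn hcn
  have hcz : c * z * c = z := by
    rw [show c * z * c = (c * z) * c from rfl, Subgroup.mem_centralizer_singleton_iff.1 hc,
      mul_assoc, hc2, mul_one]
  have hnz : c * (n * z) * c = (c * n * c) * (c * z * c) := by
    calc c * (n * z) * c = c * n * 1 * z * c := by group
      _ = c * n * (c * c) * z * c := by rw [hc2]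
      _ = _ := by group
  have h2 := h.inverted hcN hc2 (mul_mem hn h.zN) (by
    rw [hnz, hcz]; exact mul_mem hcn h.zN)
  rw [hnz, h1, hcz, mul_inv_rev, h.zinv] at h2
  refine Subgroup.mem_centralizer_singleton_iff.2 ?_
  calc n * z = n * (z * n⁻¹) * n := by group
    _ = n * (n⁻¹ * z) * n := by rw [h2]
    _ = z * n := by group

/-- Every element outside the normaliser lies in `M c 𝒩` for some `c` in the centraliser of `z`. -/
theorem exists_point {g : G} (hg : g ∉ 𝒩) :
    ∃ y ∈ M, ∃ c ∈ 𝒞, c ∉ 𝒩 ∧ (y * c)⁻¹ * g ∈ 𝒩 := by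
  obtain ⟨x, hx, e⟩ := h.full g hg
  have hv : g * x ∉ 𝒩 := fun hmem => hg (by
    have := mul_mem hmem (inv_mem (memN_of_memM hx))
    rwa [mul_inv_cancel_right] at this)
  obtain ⟨y, hy, hc⟩ := h.exists_conj_cent hv e
  refine ⟨y, hy, y⁻¹ * (g * x) * y, hc, fun hmem => hv ?_, ?_⟩
  · have := mul_mem (mul_mem (memN_of_memM hy) hmem) (inv_mem (memN_of_memM hy))
    convert this using 1
    group
  · have : (y * (y⁻¹ * (g * x) * y))⁻¹ * g = y⁻¹ * x⁻¹ := by group
    rw [this]
    exact mul_mem (inv_mem (memN_of_memM hy)) (inv_mem (memN_of_memM hx))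

theorem point_unique {y y' c c' : G} (hy : y ∈ M) (hy' : y' ∈ M) (hc : c ∈ 𝒞) (hcN : c ∉ 𝒩)
    (hc' : c' ∈ 𝒞) (hcN' : c' ∉ 𝒩) (hn : (y * c)⁻¹ * (y' * c') ∈ 𝒩) :
    y = y' ∧ c * c' ∈ 𝒩 := by
  have hc2 := h.cent_sq hc hcN
  have hc2' := h.cent_sq hc' hcN'
  have hx : y⁻¹ * y' ∈ M := mul_mem (inv_mem hy) hy'
  set x := y⁻¹ * y' with hxdef
  have hn' : c * x * c' ∈ 𝒩 := by
    convert hn using 1
    rw [hxdef, mul_inv_rev, inv_eq_of_mul_eq_one_right hc2]
    group
  have hzc : z * c = c * z := (Subgroup.mem_centralizer_singleton_iff.1 hc).symm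
  have hzc' : c' * z = z * c' := Subgroup.mem_centralizer_singleton_iff.1 hc'
  have h2 : c * x⁻¹ * c' = z * (c * x * c') * z := by
    calc c * x⁻¹ * c' = c * (z * x * z) * c' := by rw [h.zxz hx]
      _ = (c * z) * x * (z * c') := by group
      _ = (z * c) * x * (c' * z) := by rw [hzc, hzc']
      _ = z * (c * x * c') * z := by group
  have h3 : c * x⁻¹ * c' ∈ 𝒩 := by rw [h2]; exact mul_mem (mul_mem h.zN hn') h.zN
  have h4 : c' * (x * x) * c' ∈ 𝒩 := by
    have := mul_mem (inv_mem h3) hn'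
    convert this using 1
    rw [mul_inv_rev, mul_inv_rev, inv_inv, inv_eq_of_mul_eq_one_right hc2,
      inv_eq_of_mul_eq_one_right hc2']
    calc c' * (x * x) * c' = c' * x * 1 * x * c' := by group
      _ = c' * x * (c * c) * x * c' := by rw [hc2]
      _ = c' * (x * c) * (c * x * c') := by group
  have hx1 : x = 1 :=
    h.eq_one_of_sq hx (h.eq_one_of_conj_mem hcN' hc2' (mul_mem hx hx) h4)
  refine ⟨inv_mul_eq_one.1 hx1, ?_⟩
  rwa [hx1, mul_one] at hn'

end Data

end CfsgLib.TICount
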